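import Cfsg.Agent.Lib.Helper52.E7I.DefsE
import Cfsg.Agent.Lib.Helper18.ChevOrder

set_option autoImplicit false

/-! Farm E7I (helper52, S2181), piece C1 (helper64, after helper50 E8I C1): the Weyl group preserves the pairing, `OL` and `isD4`. -/

namespace Cfsg.Agent.Lib.Helper52.E7I

open Cfsg.Lie Cfsg.Agent.Lib.Helper18 Cfsg.Agent.Lib.Helper17 Cfsg.Agent.Lib.Helper36
  Cfsg.Agent.Lib.Helper6 Matrix

theorem C1_symm_tab : ∀ a b : Fin 126, chevE7.pairing a b = 0 → chevE7.pairing b a = 0 := by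
  decide +kernel

theorem pairing_wAct (L : List ℕ) (hL : ∀ i ∈ L, i < 7) (r s : ℕ) (hr : r < 126) (hs : s < 126) :
    chevE7.pairing (wAct chevE7 L r) (wAct chevE7 L s) = chevE7.pairing r s := by
  have hT : Tab chevE7 := (tabs2_of_mem (D := chevE7) (by simp)).tab
  have hP : PairTab chevE7 := pairTab_of_mem (D := chevE7) (by simp)
  exact hP.wAct hT hL hr hs

theorem C1_wAct_lt (L : List ℕ) (hL : ∀ i ∈ L, i < 7) (r : ℕ) (hr : r < 126) :
    wAct chevE7 L r < 126 := by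
  have hT : Tab chevE7 := (tabs2_of_mem (D := chevE7) (by simp)).tab
  exact hT.wAct_lt hL hr

theorem OL_map (L : List ℕ) (hL : ∀ i ∈ L, i < 7) {O : List ℕ} (hO : OL O) :
    OL (O.map (wAct chevE7 L)) := by
  constructor
  · rw [List.pairwise_map]
    refine List.Pairwise.imp_of_mem ?_ hO.1
    intro a b ha hb hab
    show chevE7.pairing _ _ = 0
    rw [pairing_wAct L hL a b (hO.2 a ha) (hO.2 b hb)]
    exact hab
  · intro o ho
    obtain ⟨a, ha, rfl⟩ := List.mem_map.1 ho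
    exact C1_wAct_lt L hL a (hO.2 a ha)

theorem OL_perm {O O' : List ℕ} (hp : O.Perm O') (hO : OL O) : OL O' := by
  have h1 : O.Pairwise (fun a b => a < 126 ∧ b < 126 ∧ e7orth a b) := by
    refine List.Pairwise.imp_of_mem ?_ hO.1
    intro a b ha hb hab
    exact ⟨hO.2 a ha, hO.2 b hb, hab⟩
  have h2 : O'.Pairwise (fun a b => a < 126 ∧ b < 126 ∧ e7orth a b) := by
    refine (hp.pairwise_iff ?_).1 h1
    rintro a b ⟨ha, hb, hab⟩
    exact ⟨hb, ha, C1_symm_tab ⟨a, ha⟩ ⟨b, hb⟩ hab⟩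
  exact ⟨h2.imp (fun h => h.2.2), fun o ho => hO.2 o (hp.mem_iff.2 ho)⟩

theorem isD4_map (L : List ℕ) (hL : ∀ i ∈ L, i < 7) {a b c d : ℕ} (ha : a < 126) (hb : b < 126)
    (hc : c < 126) (hd : d < 126) (h : isD4 a b c d) :
    isD4 (wAct chevE7 L a) (wAct chevE7 L b) (wAct chevE7 L c) (wAct chevE7 L d) := by
  obtain ⟨r, h1, h2, h3, h4⟩ := h
  refine ⟨⟨wAct chevE7 L r, C1_wAct_lt L hL r r.2⟩, ?_, ?_, ?_, ?_⟩
  · show chevE7.pairing (wAct chevE7 L r) _ = 1
    rw [pairing_wAct L hL r a r.2 ha, h1]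
  · show chevE7.pairing (wAct chevE7 L r) _ = 1
    rw [pairing_wAct L hL r b r.2 hb, h2]
  · show chevE7.pairing (wAct chevE7 L r) _ = 1
    rw [pairing_wAct L hL r c r.2 hc, h3]
  · show chevE7.pairing (wAct chevE7 L r) _ = 1
    rw [pairing_wAct L hL r d r.2 hd, h4]

end Cfsg.Agent.Lib.Helper52.E7I
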