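import Cfsg.Agent.Lib.Helper52.E7I.DefsE
import Cfsg.Agent.Lib.Helper18.ChevOrder
import Cfsg.Agent.Lib.Helper52.E7I.C1

set_option autoImplicit false

/-! Farm E7I (helper52, S2181), piece C2 (helper64, after helper50's E8I C2):
the cascade `E7 ⊃ D6 ⊃ D4 + A1`. -/

namespace Cfsg.Agent.Lib.Helper52.E7I

open Cfsg.Lie Cfsg.Agent.Lib.Helper18 Cfsg.Agent.Lib.Helper17 Cfsg.Agent.Lib.Helper36
  Cfsg.Agent.Lib.Helper6 Matrix

theorem C2_T1 : ∀ r : Fin 126, r.val = 125 ∨
    ∃ i ∈ [0, 1, 2, 3, 4, 5, 6], r.val < chevE7.reflectRoot i r := by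
  decide +kernel

theorem C2_T2 : ∀ r : Fin 126, chevE7.pairing 125 r = 0 → r.val = 92 ∨
    ∃ i ∈ [1, 2, 3, 4, 5, 6], r.val < chevE7.reflectRoot i r := by
  decide +kernel

theorem C2_T3 : ∀ r : Fin 126, chevE7.pairing 125 r = 0 → chevE7.pairing 92 r = 0 →
    (r.val = 63 ∨ r.val = 87) ∨
    ∃ i ∈ [1, 2, 3, 4, 6], r.val < chevE7.reflectRoot i r := by
  decide +kernel

theorem C2_refl_tab : ∀ (i : Fin 7) (r : Fin 126), chevE7.reflectRoot i r < 126 := by
  decide +kernel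

theorem C2_refl_lt {i r : ℕ} (hi : i < 7) (hr : r < 126) : chevE7.reflectRoot i r < 126 :=
  C2_refl_tab ⟨i, hi⟩ ⟨r, hr⟩

/-- climbing -/
theorem C2_climb (S : List ℕ) (hS : ∀ i ∈ S, i < 7) (P : ℕ → Prop) (top : ℕ → Prop)
    (hstep : ∀ r (hr : r < 126), P r → top r ∨ ∃ i ∈ S, r < chevE7.reflectRoot i r)
    (hP : ∀ r, r < 126 → P r → ∀ i ∈ S, P (chevE7.reflectRoot i r)) :
    ∀ (n r : ℕ), r < 126 → P r → 126 - r ≤ n →
      ∃ L : List ℕ, (∀ i ∈ L, i ∈ S) ∧ top (wAct chevE7 L r) := by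
  intro n
  induction n with
  | zero => intro r hr _ h; omega
  | succ n ih =>
    intro r hr hPr hn
    rcases hstep r hr hPr with h | ⟨i, hi, hlt⟩
    · exact ⟨[], by simp, h⟩
    · obtain ⟨L, hL, hw⟩ := ih (chevE7.reflectRoot i r) (C2_refl_lt (hS i hi) hr) (hP r hr hPr i hi)
        (by omega)
      refine ⟨L ++ [i], ?_, ?_⟩
      · intro j hj
        rcases List.mem_append.1 hj with h | h
        · exact hL j h
        · rw [List.mem_singleton.1 h]; exact hi
      · rw [wAct_append, wAct_cons]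
        exact hw

theorem C2_F2 : ∀ i ∈ [1, 2, 3, 4, 5, 6], chevE7.reflectRoot i 125 = 125 := by decide +kernel
theorem C2_F3 : ∀ i ∈ [1, 2, 3, 4, 6], chevE7.reflectRoot i 125 = 125 ∧
    chevE7.reflectRoot i 92 = 92 := by
  decide +kernel

theorem C2_fix (S : List ℕ) (x : ℕ) (h : ∀ i ∈ S, chevE7.reflectRoot i x = x) (L : List ℕ)
    (hL : ∀ i ∈ L, i ∈ S) : wAct chevE7 L x = x := by
  induction L with
  | nil => rfl
  | cons a L ih =>
    rw [wAct_cons, ih (fun i hi => hL i (by simp [hi])), h a (hL a (by simp))]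

/-- the conclusion -/
def C2_Res (O : List ℕ) : Prop :=
  ∃ L : List ℕ, (∀ i ∈ L, i < 7) ∧ (O.map (wAct chevE7 L) = [125] ∨ O.map (wAct chevE7 L) = [125, 92] ∨
      (∃ O', O.map (wAct chevE7 L) = 125 :: 92 :: 63 :: O') ∨
      ∃ O', O.map (wAct chevE7 L) = 125 :: 92 :: 87 :: O')

theorem C2_Res_of_map {O : List ℕ} (L : List ℕ) (hL : ∀ i ∈ L, i < 7)
    (h : C2_Res (O.map (wAct chevE7 L))) : C2_Res O := by
  obtain ⟨L', hL', h'⟩ := h
  refine ⟨L' ++ L, ?_, ?_⟩
  · intro i hi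
    rcases List.mem_append.1 hi with h1 | h1
    · exact hL' i h1
    · exact hL i h1
  · have e : O.map (wAct chevE7 (L' ++ L)) = (O.map (wAct chevE7 L)).map (wAct chevE7 L') := by
      rw [List.map_map]
      apply List.map_congr_left
      intro a _
      rw [wAct_append]
      rfl
    rw [e]
    exact h'

theorem C2_lt7 {S L : List ℕ} (hS : ∀ i ∈ S, i < 7) (hL : ∀ i ∈ L, i ∈ S) : ∀ i ∈ L, i < 7 :=
  fun i hi => hS i (hL i hi)

theorem C2_s3 (O : List ℕ) (h : OL (125 :: 92 :: O)) : C2_Res (125 :: 92 :: O) := by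
  cases O with
  | nil => exact ⟨[], by simp, Or.inr (Or.inl (by simp [wAct]))⟩
  | cons d O =>
    have hd : d < 126 := h.2 d (by simp)
    have hp := h.1
    simp only [List.pairwise_cons] at hp
    obtain ⟨L, h2, h1⟩ := C2_climb [1, 2, 3, 4, 6] (by decide)
      (fun r => chevE7.pairing 125 r = 0 ∧ chevE7.pairing 92 r = 0) (fun r => r = 63 ∨ r = 87)
      (fun r hr hP => by
        rcases C2_T3 ⟨r, hr⟩ hP.1 hP.2 with h | ⟨i, hi, h⟩
        · exact Or.inl h
        · exact Or.inr ⟨i, hi, h⟩)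
      (fun r hr hP i hi => by
        have hi7 : i < 7 := (by decide : ∀ j ∈ [1, 2, 3, 4, 6], j < 7) i hi
        have e1 := pairing_wAct [i] (by simpa using hi7) 125 r (by norm_num) hr
        have e2 := pairing_wAct [i] (by simpa using hi7) 92 r (by norm_num) hr
        simp only [wAct_cons] at e1 e2
        change chevE7.pairing (chevE7.reflectRoot i 125) (chevE7.reflectRoot i r) = _ at e1
        change chevE7.pairing (chevE7.reflectRoot i 92) (chevE7.reflectRoot i r) = _ at e2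
        rw [(C2_F3 i hi).1] at e1
        rw [(C2_F3 i hi).2] at e2
        exact ⟨e1.trans hP.1, e2.trans hP.2⟩)
      126 d hd ⟨hp.1 d (by simp), hp.2.1 d (by simp)⟩ (by omega)
    have hL7 := C2_lt7 (S := [1, 2, 3, 4, 6]) (by decide) h2
    rcases h1 with h1 | h1
    · refine ⟨L, hL7, Or.inr (Or.inr (Or.inl ⟨O.map (wAct chevE7 L), ?_⟩))⟩
      simp only [List.map_cons]
      rw [C2_fix [1, 2, 3, 4, 6] 125 (fun i hi => (C2_F3 i hi).1) _ h2,
        C2_fix [1, 2, 3, 4, 6] 92 (fun i hi => (C2_F3 i hi).2) _ h2, h1]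
    · refine ⟨L, hL7, Or.inr (Or.inr (Or.inr ⟨O.map (wAct chevE7 L), ?_⟩))⟩
      simp only [List.map_cons]
      rw [C2_fix [1, 2, 3, 4, 6] 125 (fun i hi => (C2_F3 i hi).1) _ h2,
        C2_fix [1, 2, 3, 4, 6] 92 (fun i hi => (C2_F3 i hi).2) _ h2, h1]

theorem C2_s2 (O : List ℕ) (h : OL (125 :: O)) : C2_Res (125 :: O) := by
  cases O with
  | nil => exact ⟨[], by simp, Or.inl (by simp [wAct])⟩
  | cons d O =>
    have hd : d < 126 := h.2 d (by simp)
    have hp := h.1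
    simp only [List.pairwise_cons] at hp
    obtain ⟨L, h2, h1⟩ := C2_climb [1, 2, 3, 4, 5, 6] (by decide)
      (fun r => chevE7.pairing 125 r = 0) (fun r => r = 92)
      (fun r hr hP => by
        rcases C2_T2 ⟨r, hr⟩ hP with h | ⟨i, hi, h⟩
        · exact Or.inl h
        · exact Or.inr ⟨i, hi, h⟩)
      (fun r hr hP i hi => by
        have hi7 : i < 7 := (by decide : ∀ j ∈ [1, 2, 3, 4, 5, 6], j < 7) i hi
        have e1 := pairing_wAct [i] (by simpa using hi7) 125 r (by norm_num) hr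
        simp only [wAct_cons] at e1
        change chevE7.pairing (chevE7.reflectRoot i 125) (chevE7.reflectRoot i r) = _ at e1
        rw [C2_F2 i hi] at e1
        exact e1.trans hP)
      126 d hd (hp.1 d (by simp)) (by omega)
    have hL7 := C2_lt7 (S := [1, 2, 3, 4, 5, 6]) (by decide) h2
    apply C2_Res_of_map L hL7
    have hA := OL_map L hL7 h
    simp only [List.map_cons] at hA ⊢
    rw [C2_fix [1, 2, 3, 4, 5, 6] 125 C2_F2 _ h2, h1] at hA ⊢
    exact C2_s3 _ hA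

theorem cascade3 (O : List ℕ) (hO : OL O) (hne : O ≠ []) :
    ∃ L : List ℕ, (∀ i ∈ L, i < 7) ∧ (O.map (wAct chevE7 L) = [125] ∨ O.map (wAct chevE7 L) = [125, 92] ∨
      (∃ O', O.map (wAct chevE7 L) = 125 :: 92 :: 63 :: O') ∨
      ∃ O', O.map (wAct chevE7 L) = 125 :: 92 :: 87 :: O') := by
  show C2_Res O
  cases O with
  | nil => exact absurd rfl hne
  | cons d O =>
    have hd : d < 126 := hO.2 d (by simp)
    obtain ⟨L, h2, h1⟩ := C2_climb [0, 1, 2, 3, 4, 5, 6] (by decide) (fun _ => True) (fun r => r = 125)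
      (fun r hr _ => by
        rcases C2_T1 ⟨r, hr⟩ with h | ⟨i, hi, h⟩
        · exact Or.inl h
        · exact Or.inr ⟨i, hi, h⟩)
      (fun _ _ _ _ _ => trivial) 126 d hd trivial (by omega)
    have hL7 := C2_lt7 (S := [0, 1, 2, 3, 4, 5, 6]) (by decide) h2
    apply C2_Res_of_map L hL7
    have hA := OL_map L hL7 hO
    simp only [List.map_cons] at hA ⊢
    rw [h1] at hA ⊢
    exact C2_s2 _ hA

end Cfsg.Agent.Lib.Helper52.E7I
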