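import Cfsg.Agent.Lib.Helper52.E7I.DefsE
import Cfsg.Agent.Lib.Helper18.ChevOrder

set_option autoImplicit false

/-! Farm E7I (helper52, S2181), piece C3a (helper64): the 24 roots orthogonal to 125, 92, 63. -/

namespace Cfsg.Agent.Lib.Helper52.E7I

open Cfsg.Lie Cfsg.Agent.Lib.Helper18 Cfsg.Agent.Lib.Helper17 Cfsg.Agent.Lib.Helper36
  Cfsg.Agent.Lib.Helper6 Matrix

/-- climb: apply reflections of `S` increasing the index as long as possible -/
def C3a_climb (S : List ℕ) : ℕ → ℕ → List ℕ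
  | 0, _ => []
  | fuel + 1, r =>
    match S.find? (fun i => decide (r < chevE7.reflectRoot i r)) with
    | none => []
    | some i => C3a_climb S fuel (chevE7.reflectRoot i r) ++ [i]

theorem C3a_tab : ∀ o : Fin 126, chevE7.pairing 125 o = 0 → chevE7.pairing 92 o = 0 →
    chevE7.pairing 63 o = 0 →
      wAct chevE7 (C3a_climb [1, 2, 3, 4] 20 o) o = 87 ∧
      ∀ i ∈ C3a_climb [1, 2, 3, 4] 20 o, i ∈ [1, 2, 3, 4] := by
  decide +kernel

theorem C3a_F : ∀ i ∈ [1, 2, 3, 4], chevE7.reflectRoot i 125 = 125 ∧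
    chevE7.reflectRoot i 92 = 92 ∧ chevE7.reflectRoot i 63 = 63 := by
  decide +kernel

theorem C3a_fix (S : List ℕ) (x : ℕ) (h : ∀ i ∈ S, chevE7.reflectRoot i x = x) (L : List ℕ)
    (hL : ∀ i ∈ L, i ∈ S) : wAct chevE7 L x = x := by
  induction L with
  | nil => rfl
  | cons a L ih =>
    rw [wAct_cons, ih (fun i hi => hL i (by simp [hi])), h a (hL a (by simp))]

theorem fourthA (o : ℕ) (ho : o < 126) (h1 : e7orth 125 o) (h2 : e7orth 92 o) (h3 : e7orth 63 o) :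
    ∃ L : List ℕ, (∀ i ∈ L, i < 7) ∧ wAct chevE7 L 125 = 125 ∧ wAct chevE7 L 92 = 92 ∧
      wAct chevE7 L 63 = 63 ∧ wAct chevE7 L o = 87 := by
  obtain ⟨b, c⟩ := C3a_tab ⟨o, ho⟩ h1 h2 h3
  refine ⟨_, fun i hi => ?_, C3a_fix _ 125 (fun i hi => (C3a_F i hi).1) _ c,
    C3a_fix _ 92 (fun i hi => (C3a_F i hi).2.1) _ c, C3a_fix _ 63 (fun i hi => (C3a_F i hi).2.2) _ c, b⟩
  have h : ∀ j ∈ [1, 2, 3, 4], j < 7 := by decide
  exact h i (c i hi)

end Cfsg.Agent.Lib.Helper52.E7I
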