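import Cfsg.Agent.Lib.Helper52.E7I.DefsE
import Cfsg.Agent.Lib.Helper18.ChevOrder

set_option autoImplicit false

/-! Farm E7I (helper52, S2181), piece C3b (helper64): the 8 roots orthogonal to 125, 92, 87. -/

namespace Cfsg.Agent.Lib.Helper52.E7I

open Cfsg.Lie Cfsg.Agent.Lib.Helper18 Cfsg.Agent.Lib.Helper17 Cfsg.Agent.Lib.Helper36
  Cfsg.Agent.Lib.Helper6 Matrix

/-- the explicit words -/
def C3b_word (o : ℕ) : List ℕ :=
  if o = 62 then [6]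
  else if o = 66 then [5,6,4,5]
  else if o = 59 then [5,6,4,5,4]
  else if o = 78 then [5,6,4,5,0,2,3,4,1,3,2,0]
  else if o = 47 then [5,6,4,5,0,2,3,4,1,3,2,1,0]
  else if o = 73 then [5,6,0,2,3,4,5,1,3,4,2,3,0,2,1,3,4,5,2,3,0,2,1,3]
  else if o = 52 then [5,6,0,2,3,4,5,1,3,4,2,3,0,2,1,3,4,5,2,3,0,2,1,3,2]
  else []

theorem C3b_tab : ∀ o : Fin 126, chevE7.pairing 125 o = 0 → chevE7.pairing 92 o = 0 →
    chevE7.pairing 87 o = 0 →
      (∀ i ∈ C3b_word o, i < 7) ∧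
      (([125, 92, 87, (o : ℕ)].map (wAct chevE7 (C3b_word o))).Perm [125, 92, 63, 87] ∨
        ([125, 92, 87, (o : ℕ)].map (wAct chevE7 (C3b_word o))).Perm [73, 87, 66, 78]) := by
  decide +kernel

theorem fourthB (o : ℕ) (ho : o < 126) (h1 : e7orth 125 o) (h2 : e7orth 92 o) (h3 : e7orth 87 o) :
    ∃ L : List ℕ, (∀ i ∈ L, i < 7) ∧ (([125, 92, 87, o].map (wAct chevE7 L)).Perm [125, 92, 63, 87] ∨
      ([125, 92, 87, o].map (wAct chevE7 L)).Perm [73, 87, 66, 78]) :=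
  ⟨C3b_word o, C3b_tab ⟨o, ho⟩ h1 h2 h3⟩

end Cfsg.Agent.Lib.Helper52.E7I
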