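import Cfsg.Agent.Lib.Helper52.E7I.DefsE
import Cfsg.Agent.Lib.Helper18.ChevOrder

set_option autoImplicit false

/-! Farm E7I (helper52, S2181), piece C3c (helper64): `D₄`-quadruples through 125, 92. -/

namespace Cfsg.Agent.Lib.Helper52.E7I

open Cfsg.Lie Cfsg.Agent.Lib.Helper18 Cfsg.Agent.Lib.Helper17 Cfsg.Agent.Lib.Helper36
  Cfsg.Agent.Lib.Helper6 Matrix

/-- the explicit words -/
def C3c_word (o : ℕ) : List ℕ :=
  if o = 73 then [5,6,0,2,3,4,5,1,3,4,2,3,0,2,1,3,4,5,2,3,0,2,1,3]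
  else [5,6,0,2,3,4,5,1,3,4,2,3,0,2,1,3,4,5,2,3,0,2,1,3,2]

theorem C3c_tab : ∀ o : Fin 126, chevE7.pairing 125 o = 0 → chevE7.pairing 92 o = 0 →
    chevE7.pairing 87 o = 0 → (∃ r : Fin 126, chevE7.pairing r 125 = 1 ∧ chevE7.pairing r 92 = 1 ∧
    chevE7.pairing r 87 = 1 ∧ chevE7.pairing r o = 1) →
      (∀ i ∈ C3c_word o, i < 7) ∧
        ([125, 92, 87, (o : ℕ)].map (wAct chevE7 (C3c_word o))).Perm [73, 87, 66, 78] := by
  decide +kernel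

theorem C3c_tab2 : ∀ o : Fin 126, ¬ ∃ r : Fin 126, chevE7.pairing r 125 = 1 ∧ chevE7.pairing r 92 = 1 ∧
    chevE7.pairing r 63 = 1 ∧ chevE7.pairing r o = 1 := by
  decide +kernel

/-- NOTE (helper64): the stub statement (without `h1 h2 h3`) is false (`o = 125`). -/
theorem d4std (o : ℕ) (ho : o < 126) (h1 : e7orth 125 o) (h2 : e7orth 92 o) (h3 : e7orth 87 o)
    (h : isD4 125 92 87 o) :
    ∃ L : List ℕ, (∀ i ∈ L, i < 7) ∧ ([125, 92, 87, o].map (wAct chevE7 L)).Perm [73, 87, 66, 78] :=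
  ⟨C3c_word o, C3c_tab ⟨o, ho⟩ h1 h2 h3 h⟩

theorem not_isD4 (o : ℕ) (ho : o < 126) : ¬ isD4 125 92 63 o := C3c_tab2 ⟨o, ho⟩

end Cfsg.Agent.Lib.Helper52.E7I
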