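import Cfsg.Agent.Lib.Helper52.E7I.DefsE
import Cfsg.Agent.Lib.Helper18.ChevOrder

set_option autoImplicit false

/-! Farm E7I (helper52, S2181), piece C4 (helper64): five orthogonal roots contain a `D₄`-quadruple. -/

namespace Cfsg.Agent.Lib.Helper52.E7I

open Cfsg.Lie Cfsg.Agent.Lib.Helper18 Cfsg.Agent.Lib.Helper17 Cfsg.Agent.Lib.Helper36
  Cfsg.Agent.Lib.Helper6 Matrix

theorem C4_tab : ∀ o : Fin 126, chevE7.pairing 125 o = 0 → chevE7.pairing 92 o = 0 →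
    chevE7.pairing 63 o = 0 → chevE7.pairing 87 o = 0 →
    (∃ r : Fin 126, chevE7.pairing r 125 = 1 ∧ chevE7.pairing r 92 = 1 ∧
      chevE7.pairing r 87 = 1 ∧ chevE7.pairing r o = 1) ∨
    (∃ r : Fin 126, chevE7.pairing r 125 = 1 ∧ chevE7.pairing r 63 = 1 ∧
      chevE7.pairing r 87 = 1 ∧ chevE7.pairing r o = 1) ∨
    (∃ r : Fin 126, chevE7.pairing r 92 = 1 ∧ chevE7.pairing r 63 = 1 ∧
      chevE7.pairing r 87 = 1 ∧ chevE7.pairing r o = 1) := by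
  decide +kernel

theorem five (o5 : ℕ) (h : OL [125, 92, 63, 87, o5]) :
    isD4 125 92 87 o5 ∨ isD4 125 63 87 o5 ∨ isD4 92 63 87 o5 := by
  obtain ⟨hp, hb⟩ := h
  have hb5 : o5 < 126 := hb o5 (by simp)
  simp only [List.pairwise_cons, List.mem_cons, List.not_mem_nil, or_false, forall_eq_or_imp, forall_eq,
    IsEmpty.forall_iff, implies_true, List.Pairwise.nil, and_true] at hp
  obtain ⟨⟨-, -, -, h1⟩, ⟨-, -, h2⟩, ⟨-, h3⟩, h4⟩ := hp
  exact C4_tab ⟨o5, hb5⟩ h1 h2 h3 h4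

end Cfsg.Agent.Lib.Helper52.E7I
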