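import Cfsg.Agent.Lib.Helper52.E7I.F1

set_option autoImplicit false
set_option linter.unusedSimpArgs false

/-! Farm E7I (helper52, S2181), piece C5 (helper64): the fusion 4A1 -> 3A1 with spectators
(adapted from helper17's `E6I/E9.lean`). -/

namespace Cfsg.Agent.Lib.Helper52.E7I

open Cfsg.Lie Cfsg.Agent.Lib.Helper18 Cfsg.Agent.Lib.Helper17 Cfsg.Agent.Lib.Helper36
  Cfsg.Agent.Lib.Helper6 Matrix

variable {F : Type*} [Field F] (hB : Base chevE7 F)

set_option maxHeartbeats 1000000 in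
theorem C5_fusion [CharP F 2] :
    (hB.xg 70 1 * hB.xg 79 1 * hB.xg 83 1 * hB.xg 74 1) * CG.lp hB [73, 87, 66, 78] (fun _ => 1) *
      (hB.xg 70 1 * hB.xg 79 1 * hB.xg 83 1 * hB.xg 74 1)⁻¹ = CG.lp hB [73, 78, 66] (fun _ => 1) := by
  obtain ⟨x, hx⟩ : ∃ x : ℕ → GL chevE7.Idx F, x = fun k => hB.xg k 1 := ⟨_, rfl⟩
  have sw0 : ∀ r s : ℕ, 63 ≤ r → r < 126 → 63 ≤ s → s < 126 → e7add r s = none →
      ∀ z, x r * (x s * z) = x s * (x r * z) := by
    intro r s h1 h2 h3 h4 h z
    rw [hx, ← mul_assoc, ← mul_assoc]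
    beta_reduce
    rw [e7_comm_none hB r s h1 h2 h3 h4 h 1 1]
  have sw1 : ∀ r s k : ℕ, 63 ≤ r → r < 126 → 63 ≤ s → s < 126 → e7add r s = some k →
      ∀ z, x r * (x s * z) = x s * (x k * (x r * z)) := by
    intro r s k h1 h2 h3 h4 h z
    have := e7_conj_some hB r s k h1 h2 h3 h4 h 1 1
    rw [mul_one] at this
    rw [hx]
    beta_reduce
    calc hB.xg r 1 * (hB.xg s 1 * z) = (hB.xg r 1 * hB.xg s 1 * (hB.xg r 1)⁻¹) * (hB.xg r 1 * z) := by group
      _ = _ := by rw [this]; group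
  have sq : ∀ r z, x r * (x r * z) = z := by
    intro r z
    rw [hx, ← mul_assoc]
    beta_reduce
    rw [hB.xg_add, CharTwo.add_self_eq_zero, hB.xg_zero, one_mul]
  have w70_66 : ∀ z, x 70 * (x 66 * z) = x 66 * (x 70 * z) := sw0 70 66 (by norm_num) (by norm_num) (by norm_num) (by norm_num) (by decide +kernel)
  have w73_66 : ∀ z, x 73 * (x 66 * z) = x 66 * (x 73 * z) := sw0 73 66 (by norm_num) (by norm_num) (by norm_num) (by norm_num) (by decide +kernel)
  have w73_70 : ∀ z, x 73 * (x 70 * z) = x 70 * (x 75 * (x 73 * z)) := sw1 73 70 75 (by norm_num) (by norm_num) (by norm_num) (by norm_num) (by decide +kernel)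
  have w74_66 : ∀ z, x 74 * (x 66 * z) = x 66 * (x 75 * (x 74 * z)) := sw1 74 66 75 (by norm_num) (by norm_num) (by norm_num) (by norm_num) (by decide +kernel)
  have w74_70 : ∀ z, x 74 * (x 70 * z) = x 70 * (x 74 * z) := sw0 74 70 (by norm_num) (by norm_num) (by norm_num) (by norm_num) (by decide +kernel)
  have w74_73 : ∀ z, x 74 * (x 73 * z) = x 73 * (x 74 * z) := sw0 74 73 (by norm_num) (by norm_num) (by norm_num) (by norm_num) (by decide +kernel)
  have w75_66 : ∀ z, x 75 * (x 66 * z) = x 66 * (x 75 * z) := sw0 75 66 (by norm_num) (by norm_num) (by norm_num) (by norm_num) (by decide +kernel)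
  have w75_70 : ∀ z, x 75 * (x 70 * z) = x 70 * (x 75 * z) := sw0 75 70 (by norm_num) (by norm_num) (by norm_num) (by norm_num) (by decide +kernel)
  have w75_73 : ∀ z, x 75 * (x 73 * z) = x 73 * (x 75 * z) := sw0 75 73 (by norm_num) (by norm_num) (by norm_num) (by norm_num) (by decide +kernel)
  have w75_74 : ∀ z, x 75 * (x 74 * z) = x 74 * (x 75 * z) := sw0 75 74 (by norm_num) (by norm_num) (by norm_num) (by norm_num) (by decide +kernel)
  have w78_66 : ∀ z, x 78 * (x 66 * z) = x 66 * (x 78 * z) := sw0 78 66 (by norm_num) (by norm_num) (by norm_num) (by norm_num) (by decide +kernel)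
  have w78_70 : ∀ z, x 78 * (x 70 * z) = x 70 * (x 80 * (x 78 * z)) := sw1 78 70 80 (by norm_num) (by norm_num) (by norm_num) (by norm_num) (by decide +kernel)
  have w78_73 : ∀ z, x 78 * (x 73 * z) = x 73 * (x 78 * z) := sw0 78 73 (by norm_num) (by norm_num) (by norm_num) (by norm_num) (by decide +kernel)
  have w78_74 : ∀ z, x 78 * (x 74 * z) = x 74 * (x 83 * (x 78 * z)) := sw1 78 74 83 (by norm_num) (by norm_num) (by norm_num) (by norm_num) (by decide +kernel)
  have w78_75 : ∀ z, x 78 * (x 75 * z) = x 75 * (x 84 * (x 78 * z)) := sw1 78 75 84 (by norm_num) (by norm_num) (by norm_num) (by norm_num) (by decide +kernel)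
  have w79_66 : ∀ z, x 79 * (x 66 * z) = x 66 * (x 80 * (x 79 * z)) := sw1 79 66 80 (by norm_num) (by norm_num) (by norm_num) (by norm_num) (by decide +kernel)
  have w79_70 : ∀ z, x 79 * (x 70 * z) = x 70 * (x 79 * z) := sw0 79 70 (by norm_num) (by norm_num) (by norm_num) (by norm_num) (by decide +kernel)
  have w79_73 : ∀ z, x 79 * (x 73 * z) = x 73 * (x 83 * (x 79 * z)) := sw1 79 73 83 (by norm_num) (by norm_num) (by norm_num) (by norm_num) (by decide +kernel)
  have w79_74 : ∀ z, x 79 * (x 74 * z) = x 74 * (x 79 * z) := sw0 79 74 (by norm_num) (by norm_num) (by norm_num) (by norm_num) (by decide +kernel)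
  have w79_75 : ∀ z, x 79 * (x 75 * z) = x 75 * (x 87 * (x 79 * z)) := sw1 79 75 87 (by norm_num) (by norm_num) (by norm_num) (by norm_num) (by decide +kernel)
  have w79_78 : ∀ z, x 79 * (x 78 * z) = x 78 * (x 79 * z) := sw0 79 78 (by norm_num) (by norm_num) (by norm_num) (by norm_num) (by decide +kernel)
  have w80_66 : ∀ z, x 80 * (x 66 * z) = x 66 * (x 80 * z) := sw0 80 66 (by norm_num) (by norm_num) (by norm_num) (by norm_num) (by decide +kernel)
  have w80_70 : ∀ z, x 80 * (x 70 * z) = x 70 * (x 80 * z) := sw0 80 70 (by norm_num) (by norm_num) (by norm_num) (by norm_num) (by decide +kernel)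
  have w80_73 : ∀ z, x 80 * (x 73 * z) = x 73 * (x 84 * (x 80 * z)) := sw1 80 73 84 (by norm_num) (by norm_num) (by norm_num) (by norm_num) (by decide +kernel)
  have w80_74 : ∀ z, x 80 * (x 74 * z) = x 74 * (x 87 * (x 80 * z)) := sw1 80 74 87 (by norm_num) (by norm_num) (by norm_num) (by norm_num) (by decide +kernel)
  have w80_75 : ∀ z, x 80 * (x 75 * z) = x 75 * (x 80 * z) := sw0 80 75 (by norm_num) (by norm_num) (by norm_num) (by norm_num) (by decide +kernel)
  have w80_78 : ∀ z, x 80 * (x 78 * z) = x 78 * (x 80 * z) := sw0 80 78 (by norm_num) (by norm_num) (by norm_num) (by norm_num) (by decide +kernel)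
  have w80_79 : ∀ z, x 80 * (x 79 * z) = x 79 * (x 80 * z) := sw0 80 79 (by norm_num) (by norm_num) (by norm_num) (by norm_num) (by decide +kernel)
  have w83_66 : ∀ z, x 83 * (x 66 * z) = x 66 * (x 84 * (x 83 * z)) := sw1 83 66 84 (by norm_num) (by norm_num) (by norm_num) (by norm_num) (by decide +kernel)
  have w83_70 : ∀ z, x 83 * (x 70 * z) = x 70 * (x 87 * (x 83 * z)) := sw1 83 70 87 (by norm_num) (by norm_num) (by norm_num) (by norm_num) (by decide +kernel)
  have w83_73 : ∀ z, x 83 * (x 73 * z) = x 73 * (x 83 * z) := sw0 83 73 (by norm_num) (by norm_num) (by norm_num) (by norm_num) (by decide +kernel)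
  have w83_74 : ∀ z, x 83 * (x 74 * z) = x 74 * (x 83 * z) := sw0 83 74 (by norm_num) (by norm_num) (by norm_num) (by norm_num) (by decide +kernel)
  have w83_75 : ∀ z, x 83 * (x 75 * z) = x 75 * (x 83 * z) := sw0 83 75 (by norm_num) (by norm_num) (by norm_num) (by norm_num) (by decide +kernel)
  have w83_78 : ∀ z, x 83 * (x 78 * z) = x 78 * (x 83 * z) := sw0 83 78 (by norm_num) (by norm_num) (by norm_num) (by norm_num) (by decide +kernel)
  have w83_79 : ∀ z, x 83 * (x 79 * z) = x 79 * (x 83 * z) := sw0 83 79 (by norm_num) (by norm_num) (by norm_num) (by norm_num) (by decide +kernel)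
  have w83_80 : ∀ z, x 83 * (x 80 * z) = x 80 * (x 83 * z) := sw0 83 80 (by norm_num) (by norm_num) (by norm_num) (by norm_num) (by decide +kernel)
  have w84_66 : ∀ z, x 84 * (x 66 * z) = x 66 * (x 84 * z) := sw0 84 66 (by norm_num) (by norm_num) (by norm_num) (by norm_num) (by decide +kernel)
  have w84_70 : ∀ z, x 84 * (x 70 * z) = x 70 * (x 84 * z) := sw0 84 70 (by norm_num) (by norm_num) (by norm_num) (by norm_num) (by decide +kernel)
  have w84_73 : ∀ z, x 84 * (x 73 * z) = x 73 * (x 84 * z) := sw0 84 73 (by norm_num) (by norm_num) (by norm_num) (by norm_num) (by decide +kernel)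
  have w84_74 : ∀ z, x 84 * (x 74 * z) = x 74 * (x 84 * z) := sw0 84 74 (by norm_num) (by norm_num) (by norm_num) (by norm_num) (by decide +kernel)
  have w84_75 : ∀ z, x 84 * (x 75 * z) = x 75 * (x 84 * z) := sw0 84 75 (by norm_num) (by norm_num) (by norm_num) (by norm_num) (by decide +kernel)
  have w84_78 : ∀ z, x 84 * (x 78 * z) = x 78 * (x 84 * z) := sw0 84 78 (by norm_num) (by norm_num) (by norm_num) (by norm_num) (by decide +kernel)
  have w84_79 : ∀ z, x 84 * (x 79 * z) = x 79 * (x 84 * z) := sw0 84 79 (by norm_num) (by norm_num) (by norm_num) (by norm_num) (by decide +kernel)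
  have w84_80 : ∀ z, x 84 * (x 80 * z) = x 80 * (x 84 * z) := sw0 84 80 (by norm_num) (by norm_num) (by norm_num) (by norm_num) (by decide +kernel)
  have w84_83 : ∀ z, x 84 * (x 83 * z) = x 83 * (x 84 * z) := sw0 84 83 (by norm_num) (by norm_num) (by norm_num) (by norm_num) (by decide +kernel)
  have w87_66 : ∀ z, x 87 * (x 66 * z) = x 66 * (x 87 * z) := sw0 87 66 (by norm_num) (by norm_num) (by norm_num) (by norm_num) (by decide +kernel)
  have w87_70 : ∀ z, x 87 * (x 70 * z) = x 70 * (x 87 * z) := sw0 87 70 (by norm_num) (by norm_num) (by norm_num) (by norm_num) (by decide +kernel)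
  have w87_73 : ∀ z, x 87 * (x 73 * z) = x 73 * (x 87 * z) := sw0 87 73 (by norm_num) (by norm_num) (by norm_num) (by norm_num) (by decide +kernel)
  have w87_74 : ∀ z, x 87 * (x 74 * z) = x 74 * (x 87 * z) := sw0 87 74 (by norm_num) (by norm_num) (by norm_num) (by norm_num) (by decide +kernel)
  have w87_75 : ∀ z, x 87 * (x 75 * z) = x 75 * (x 87 * z) := sw0 87 75 (by norm_num) (by norm_num) (by norm_num) (by norm_num) (by decide +kernel)
  have w87_78 : ∀ z, x 87 * (x 78 * z) = x 78 * (x 87 * z) := sw0 87 78 (by norm_num) (by norm_num) (by norm_num) (by norm_num) (by decide +kernel)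
  have w87_79 : ∀ z, x 87 * (x 79 * z) = x 79 * (x 87 * z) := sw0 87 79 (by norm_num) (by norm_num) (by norm_num) (by norm_num) (by decide +kernel)
  have w87_80 : ∀ z, x 87 * (x 80 * z) = x 80 * (x 87 * z) := sw0 87 80 (by norm_num) (by norm_num) (by norm_num) (by norm_num) (by decide +kernel)
  have w87_83 : ∀ z, x 87 * (x 83 * z) = x 83 * (x 87 * z) := sw0 87 83 (by norm_num) (by norm_num) (by norm_num) (by norm_num) (by decide +kernel)
  have w87_84 : ∀ z, x 87 * (x 84 * z) = x 84 * (x 87 * z) := sw0 87 84 (by norm_num) (by norm_num) (by norm_num) (by norm_num) (by decide +kernel)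
  have eg : hB.xg 70 1 * hB.xg 79 1 * hB.xg 83 1 * hB.xg 74 1 = x 70 * x 79 * x 83 * x 74 := by rw [hx]
  rw [eg]
  have e1 : CG.lp hB [73, 87, 66, 78] (fun _ => (1 : F)) = x 73 * (x 87 * (x 66 * (x 78 * 1))) := by
    rw [hx]; simp [CG.lp]
  have e2 : CG.lp hB [73, 78, 66] (fun _ => (1 : F)) = x 73 * (x 78 * (x 66 * 1)) := by
    rw [hx]; simp [CG.lp]
  rw [e1, e2, mul_inv_eq_iff_eq_mul]
  have l : x 70 * x 79 * x 83 * x 74 * (x 73 * (x 87 * (x 66 * (x 78 * 1)))) =
      x 70 * (x 79 * (x 83 * (x 74 * (x 73 * (x 87 * (x 66 * (x 78 * 1))))))) := by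
    simp only [mul_assoc]
  have r : x 73 * (x 78 * (x 66 * 1)) * (x 70 * x 79 * x 83 * x 74) =
      x 73 * (x 78 * (x 66 * (x 70 * (x 79 * (x 83 * (x 74 * 1)))))) := by
    simp only [mul_assoc, mul_one, one_mul]
  rw [l, r]
  simp only [sq, w70_66, w73_66, w73_70, w74_66, w74_70, w74_73, w75_66, w75_70, w75_73, w75_74, w78_66, w78_70, w78_73, w78_74, w78_75, w79_66, w79_70, w79_73, w79_74, w79_75, w79_78, w80_66, w80_70, w80_73, w80_74, w80_75, w80_78, w80_79, w83_66, w83_70, w83_73, w83_74, w83_75, w83_78, w83_79, w83_80, w84_66, w84_70, w84_73, w84_74, w84_75, w84_78, w84_79, w84_80, w84_83, w87_66, w87_70, w87_73, w87_74, w87_75, w87_78, w87_79, w87_80, w87_83, w87_84]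


theorem C5_tab : ∀ o : Fin 126, chevE7.pairing 73 o = 0 → chevE7.pairing 87 o = 0 →
    chevE7.pairing 66 o = 0 → chevE7.pairing 78 o = 0 → ∀ r ∈ [70, 79, 83, 74],
      chevE7.commTerms r o = [] ∧ o.val ≠ r ∧ o.val ≠ chevE7.neg r := by
  decide +kernel

theorem C5_comm (o : ℕ) (ho : o < 126) (h1 : e7orth 73 o) (h2 : e7orth 87 o) (h3 : e7orth 66 o)
    (h4 : e7orth 78 o) (r : ℕ) (hr : r ∈ [70, 79, 83, 74]) (t u : F) :
    hB.xg r t * hB.xg o u = hB.xg o u * hB.xg r t := by
  obtain ⟨a1, a2, a3⟩ := C5_tab ⟨o, ho⟩ h1 h2 h3 h4 r hr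
  have hr' : r < 126 := by
    have : ∀ j ∈ [70, 79, 83, 74], j < 126 := by decide
    exact this r hr
  refine CG.comm_dvd hB (m := 0) (by simp) hr' ho (Or.inr ⟨a2, a3, ?_⟩) t u
  intro c hc
  simp only at a1
  rw [a1] at hc
  simp at hc

/-- [C5] fusion with spectators -/
theorem fusion7 [CharP F 2] (O' : List ℕ) (h : OL (73 :: 87 :: 66 :: 78 :: O')) : ∃ g ∈ chevE7.group F,
    g * CG.lp hB (73 :: 87 :: 66 :: 78 :: O') (fun _ => 1) * g⁻¹ =
      CG.lp hB (73 :: 78 :: 66 :: O') (fun _ => 1) := by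
  obtain ⟨hp, hb⟩ := h
  refine ⟨hB.xg 70 1 * hB.xg 79 1 * hB.xg 83 1 * hB.xg 74 1, ?_, ?_⟩
  · exact mul_mem (mul_mem (mul_mem (hB.xg_mem_group (by decide +kernel) 1) (hB.xg_mem_group (by decide +kernel) 1))
      (hB.xg_mem_group (by decide +kernel) 1)) (hB.xg_mem_group (by decide +kernel) 1)
  · have hO : ∀ o ∈ O', o < 126 ∧ e7orth 73 o ∧ e7orth 87 o ∧ e7orth 66 o ∧ e7orth 78 o := by
      intro o ho
      simp only [List.pairwise_cons, List.mem_cons] at hp
      exact ⟨hb o (by simp [ho]), hp.1 o (by simp [ho]), hp.2.1 o (by simp [ho]), hp.2.2.1 o (by simp [ho]),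
        hp.2.2.2.1 o ho⟩
    have hc : ∀ r ∈ [70, 79, 83, 74], hB.xg r 1 * CG.lp hB O' (fun _ => (1 : F)) =
        CG.lp hB O' (fun _ => 1) * hB.xg r 1 := by
      intro r hr
      apply CG.lp_comm hB
      intro s hs u
      obtain ⟨b0, b1, b2, b3, b4⟩ := hO s hs
      exact C5_comm hB s b0 b1 b2 b3 b4 r hr 1 u
    have hg : (hB.xg 70 1 * hB.xg 79 1 * hB.xg 83 1 * hB.xg 74 1) * CG.lp hB O' (fun _ => (1 : F)) =
        CG.lp hB O' (fun _ => 1) * (hB.xg 70 1 * hB.xg 79 1 * hB.xg 83 1 * hB.xg 74 1) := by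
      have c1 := hc 70 (by simp)
      have c2 := hc 79 (by simp)
      have c3 := hc 83 (by simp)
      have c4 := hc 74 (by simp)
      calc _ = hB.xg 70 1 * (hB.xg 79 1 * (hB.xg 83 1 * (hB.xg 74 1 * CG.lp hB O' (fun _ => (1 : F))))) := by
            simp only [mul_assoc]
        _ = hB.xg 70 1 * (hB.xg 79 1 * ((hB.xg 83 1 * CG.lp hB O' (fun _ => (1 : F))) * hB.xg 74 1)) := by
            rw [c4]; simp only [mul_assoc]
        _ = hB.xg 70 1 * ((hB.xg 79 1 * CG.lp hB O' (fun _ => (1 : F))) * hB.xg 83 1 * hB.xg 74 1) := by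
            rw [c3]; simp only [mul_assoc]
        _ = (hB.xg 70 1 * CG.lp hB O' (fun _ => (1 : F))) * hB.xg 79 1 * hB.xg 83 1 * hB.xg 74 1 := by
            rw [c2]; simp only [mul_assoc]
        _ = _ := by rw [c1]; simp only [mul_assoc]
    have e1 : CG.lp hB (73 :: 87 :: 66 :: 78 :: O') (fun _ => (1 : F)) =
        CG.lp hB [73, 87, 66, 78] (fun _ => 1) * CG.lp hB O' (fun _ => 1) := by
      simp only [CG.lp_cons, CG.lp_nil, mul_one, mul_assoc]
    have e2 : CG.lp hB (73 :: 78 :: 66 :: O') (fun _ => (1 : F)) =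
        CG.lp hB [73, 78, 66] (fun _ => 1) * CG.lp hB O' (fun _ => 1) := by
      simp only [CG.lp_cons, CG.lp_nil, mul_one, mul_assoc]
    rw [e1, e2, ← C5_fusion hB]
    generalize hB.xg 70 1 * hB.xg 79 1 * hB.xg 83 1 * hB.xg 74 1 = g at *
    generalize CG.lp hB O' (fun _ => (1 : F)) = P at *
    generalize CG.lp hB [73, 87, 66, 78] (fun _ => (1 : F)) = Q at *
    have hg' : P * g⁻¹ = g⁻¹ * P := by
      calc P * g⁻¹ = g⁻¹ * (g * P) * g⁻¹ := by group
        _ = g⁻¹ * (P * g) * g⁻¹ := by rw [hg]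
        _ = g⁻¹ * P := by group
    calc g * (Q * P) * g⁻¹ = g * Q * (P * g⁻¹) := by group
      _ = g * Q * (g⁻¹ * P) := by rw [hg']
      _ = g * Q * g⁻¹ * P := by group

end Cfsg.Agent.Lib.Helper52.E7I
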