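import Cfsg.Agent.Lib.Helper17.CentGen
import Cfsg.Agent.Lib.Helper17.E6I.Main
import Cfsg.Agent.Lib.Helper36.ChevSyl

/-!
# Involutions of `E₇(2^a)`: definitions (helper52, after helper17's E6I / E8I)
-/

set_option autoImplicit false

namespace Cfsg.Agent.Lib.Helper52.E7I

open Cfsg.Lie Cfsg.Agent.Lib.Helper18 Cfsg.Agent.Lib.Helper17 Cfsg.Agent.Lib.Helper36
  Cfsg.Agent.Lib.Helper6 Matrix

variable {F : Type*} [Field F] (hB : Base chevE7 F)

/-- the sum of two positive roots -/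
def e7add (r s : ℕ) : Option ℕ :=
  if 63 ≤ r ∧ r < 126 ∧ 63 ≤ s ∧ s < 126 then ((chevE7.commTerms r s).head?).map (·.1) else none

/-- orthogonality -/
def e7orth (r s : ℕ) : Prop := chevE7.pairing r s = 0

/-- `A₁` -/
def z1 : GL chevE7.Idx F := hB.xg 125 1
/-- `2A₁` -/
def z2 : GL chevE7.Idx F := hB.xg 118 1 * hB.xg 121 1
/-- `(3A₁)'` -/
def z3 : GL chevE7.Idx F := hB.xg 114 1 * hB.xg 116 1 * hB.xg 119 1
/-- `(3A₁)''` -/
def z3b : GL chevE7.Idx F := hB.xg 92 1 * hB.xg 107 1 * hB.xg 111 1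
/-- `4A₁` -/
def z4 : GL chevE7.Idx F := hB.xg 92 1 * hB.xg 107 1 * hB.xg 111 1 * hB.xg 112 1

/-- conjugate to one of the five representatives -/
def Good7 (g : GL chevE7.Idx F) : Prop :=
  ∃ h ∈ chevE7.group F, h * g * h⁻¹ = z1 hB ∨ h * g * h⁻¹ = z2 hB ∨ h * g * h⁻¹ = z3 hB ∨
    h * g * h⁻¹ = z3b hB ∨ h * g * h⁻¹ = z4 hB

/-- the roots of height at least 9 -/
def S9 : List ℕ := [92, 107, 108, 111, 112, 113, 114, 115, 116, 117, 118, 119, 120, 121, 122, 123, 124, 125]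

/-- the height of a root -/
def ht7 (r : ℕ) : ℤ := ((List.range 7).map fun i => (chevE7.coroot.getD r #[]).getD i 0).sum

/-- three orthogonal roots contained in a `D₄`-quadruple -/
def isT (a b c : ℕ) : Prop := ∃ r : Fin 126, chevE7.pairing r a = 1 ∧ chevE7.pairing r b = 1 ∧
  chevE7.pairing r c = 1

/-- four orthogonal roots whose half sum is a root -/
def isD4 (a b c d : ℕ) : Prop := ∃ r : Fin 126, chevE7.pairing r a = 1 ∧ chevE7.pairing r b = 1 ∧
  chevE7.pairing r c = 1 ∧ chevE7.pairing r d = 1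

/-- orthogonal lists of roots -/
def OL (O : List ℕ) : Prop := O.Pairwise e7orth ∧ ∀ o ∈ O, o < 126

end Cfsg.Agent.Lib.Helper52.E7I
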