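import Cfsg.Agent.Lib.Helper52.E7I.DefsE

/-! # S2181 farm E7I (helper52), piece [F11] (helper28, copy of helper88's E8I/F11) -/

set_option autoImplicit false
set_option linter.unusedSimpArgs false

namespace Cfsg.Agent.Lib.Helper52.E7I

open Cfsg.Lie Cfsg.Agent.Lib.Helper18 Cfsg.Agent.Lib.Helper17 Cfsg.Agent.Lib.Helper36
  Cfsg.Agent.Lib.Helper6 Matrix

variable {F : Type*} [Field F] (hB : Base chevE7 F)

/-- sorting rule for commuting root elements -/
theorem F11_sw (r s : ℕ) (h : s < r ∧ r < 126 ∧ s ≠ chevE7.neg r ∧ chevE7.commTerms r s = []) :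
    hB.xg r 1 * hB.xg s 1 = hB.xg s 1 * hB.xg r 1 :=
  CG.comm_dvd hB (m := 0) (by simp) h.2.1 (lt_trans h.1 h.2.1)
    (Or.inr ⟨by omega, h.2.2.1, by rw [h.2.2.2]; simp⟩) 1 1

theorem F11_sw' (r s : ℕ) (h : s < r ∧ r < 126 ∧ s ≠ chevE7.neg r ∧ chevE7.commTerms r s = [])
    (w : GL chevE7.Idx F) : hB.xg r 1 * (hB.xg s 1 * w) = hB.xg s 1 * (hB.xg r 1 * w) := by
  rw [← mul_assoc, F11_sw hB r s h, mul_assoc]

theorem F11_sq [CharP F 2] (r : ℕ) : hB.xg r 1 * hB.xg r 1 = 1 := by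
  rw [hB.xg_add, CharTwo.add_self_eq_zero, hB.xg_zero]

theorem F11_sq' [CharP F 2] (r : ℕ) (w : GL chevE7.Idx F) : hB.xg r 1 * (hB.xg r 1 * w) = w := by
  rw [← mul_assoc, F11_sq, one_mul]

theorem F11_hD : chevE7 ∈ [chevG2, chevB2, chevD4, chevF4, chevE6, chevE7, chevE8] := by simp

theorem F11_pos : ∀ r : Fin 126, 63 ≤ r.val → chevE7.IsPosRoot r.val := by decide +kernel

theorem F11_ne (L : List ℕ) (hL : ∀ r ∈ L, 63 ≤ r ∧ r < 126) (hs : L.Pairwise (· < ·)) (r0 : ℕ)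
    (h0 : r0 ∈ L) : CG.lp hB L (fun _ => (1 : F)) ≠ 1 := by
  intro h
  have h1 : CG.lp hB L (fun _ => (1 : F)) = CG.lp hB L (fun _ => 0) := by
    rw [CG.lp_zero]; exact h
  have := CG.lp_inj hB F11_hD (L := L)
    (fun r hr => F11_pos ⟨r, (hL r hr).2⟩ (hL r hr).1) hs h1 r0 h0
  exact one_ne_zero this

/-- [F11] -/
theorem z_props [CharP F 2] : (z1 hB ∈ chevE7.group F ∧ orderOf (z1 hB) = 2) ∧
    (z2 hB ∈ chevE7.group F ∧ orderOf (z2 hB) = 2) ∧ (z3 hB ∈ chevE7.group F ∧ orderOf (z3 hB) = 2) ∧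
    (z3b hB ∈ chevE7.group F ∧ orderOf (z3b hB) = 2) ∧ (z4 hB ∈ chevE7.group F ∧ orderOf (z4 hB) = 2) := by
  have hm : ∀ r : ℕ, r < 126 → hB.xg r 1 ∈ chevE7.group F := fun r hr => hB.xg_mem_group hr 1
  refine ⟨⟨hm 125 (by norm_num), ?_⟩, ⟨mul_mem (hm 118 (by norm_num)) (hm 121 (by norm_num)), ?_⟩,
    ⟨mul_mem (mul_mem (hm 114 (by norm_num)) (hm 116 (by norm_num))) (hm 119 (by norm_num)), ?_⟩,
    ⟨mul_mem (mul_mem (hm 92 (by norm_num)) (hm 107 (by norm_num))) (hm 111 (by norm_num)), ?_⟩,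
    ⟨mul_mem (mul_mem (mul_mem (hm 92 (by norm_num)) (hm 107 (by norm_num))) (hm 111 (by norm_num)))
      (hm 112 (by norm_num)), ?_⟩⟩
  · apply orderOf_eq_prime
    · rw [sq]; exact F11_sq hB 125
    · have := F11_ne hB (F := F) [125] (by simp) (by simp) 125 (by simp)
      simpa [z1, CG.lp_cons, CG.lp_nil] using this
  · apply orderOf_eq_prime
    · rw [sq]
      unfold z2
      simp only [mul_assoc]
      simp (disch := decide +kernel) only [F11_sq hB, F11_sq' hB, F11_sw hB, F11_sw' hB, mul_one]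
    · have := F11_ne hB (F := F) [118, 121] (by simp) (by simp) 118 (by simp)
      simpa [z2, CG.lp_cons, CG.lp_nil] using this
  · apply orderOf_eq_prime
    · rw [sq]
      unfold z3
      simp only [mul_assoc]
      simp (disch := decide +kernel) only [F11_sq hB, F11_sq' hB, F11_sw hB, F11_sw' hB, mul_one]
    · have := F11_ne hB (F := F) [114, 116, 119] (by simp) (by simp) 114 (by simp)
      simpa [z3, CG.lp_cons, CG.lp_nil, mul_assoc] using this
  · apply orderOf_eq_prime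
    · rw [sq]
      unfold z3b
      simp only [mul_assoc]
      simp (disch := decide +kernel) only [F11_sq hB, F11_sq' hB, F11_sw hB, F11_sw' hB, mul_one]
    · have := F11_ne hB (F := F) [92, 107, 111] (by simp) (by simp) 92 (by simp)
      simpa [z3b, CG.lp_cons, CG.lp_nil, mul_assoc] using this
  · apply orderOf_eq_prime
    · rw [sq]
      unfold z4
      simp only [mul_assoc]
      simp (disch := decide +kernel) only [F11_sq hB, F11_sq' hB, F11_sw hB, F11_sw' hB, mul_one]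
    · have := F11_ne hB (F := F) [92, 107, 111, 112] (by simp) (by simp) 92 (by simp)
      simpa [z4, CG.lp_cons, CG.lp_nil, mul_assoc] using this

end Cfsg.Agent.Lib.Helper52.E7I
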