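import Cfsg.Agent.Lib.Helper52.E7I.DefsE

set_option autoImplicit false

namespace Cfsg.Agent.Lib.Helper52.E7I

open Cfsg.Lie Cfsg.Agent.Lib.Helper18 Cfsg.Agent.Lib.Helper17 Cfsg.Agent.Lib.Helper36
  Cfsg.Agent.Lib.Helper6 Matrix

variable {F : Type*} [Field F] (hB : Base chevE7 F)

theorem F4_pos : ∀ r : Fin 126, 63 ≤ r.val → chevE7.IsPosRoot r.val := by decide +kernel

/-- [F4] -/
theorem e7_inj (c c' : ℕ → F)
    (h : ((List.range' 63 (126 - 63)).map fun r => hB.xg r (c r)).prod =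
      ((List.range' 63 (126 - 63)).map fun r => hB.xg r (c' r)).prod) (r : ℕ) (h0 : 63 ≤ r) (h1 : r < 126) :
    c r = c' r := by
  have hD : chevE7 ∈ [chevG2, chevB2, chevD4, chevF4, chevE6, chevE7, chevE8] := by simp
  apply CG.lp_inj hB hD (L := List.range' 63 (126 - 63)) ?_ ?_ h r ?_
  · intro r hr
    rw [List.mem_range'_1] at hr
    exact F4_pos ⟨r, by omega⟩ hr.1
  · exact List.pairwise_lt_range'
  · simp only [List.mem_range'_1]
    omega

end Cfsg.Agent.Lib.Helper52.E7I
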