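import Cfsg.Agent.Lib.Helper52.E7I.DefsE

set_option autoImplicit false

namespace Cfsg.Agent.Lib.Helper52.E7I

open Cfsg.Lie Cfsg.Agent.Lib.Helper18 Cfsg.Agent.Lib.Helper17 Cfsg.Agent.Lib.Helper36
  Cfsg.Agent.Lib.Helper6 Matrix

variable {F : Type*} [Field F] (hB : Base chevE7 F)

theorem F5_pair_self : ∀ k : Fin 126, chevE7.pairing k k = 2 := by decide +kernel

theorem F5_pair_symm : ∀ r s : Fin 126, chevE7.pairing r s = 0 → chevE7.pairing s r = 0 := by
  decide +kernel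

theorem F5_aux [Finite F] [CharP F 2] (O : List ℕ) (hO : O.Pairwise e7orth) (hb : ∀ o ∈ O, o < 126)
    (c : ℕ → F) (hc : ∀ o ∈ O, c o ≠ 0) :
    ∃ h ∈ chevE7.group F, h * CG.lp hB O c * h⁻¹ = CG.lp hB O (fun _ => 1) ∧
      ∀ s, s < 126 → (∀ o ∈ O, chevE7.pairing o s = 0) → ∀ t : F,
        h * hB.xg s t * h⁻¹ = hB.xg s t := by
  have hT : Tab chevE7 := (tabs2_of_mem (D := chevE7) (by simp)).tab
  induction O with
  | nil => exact ⟨1, one_mem _, by simp, fun s _ _ t => by simp⟩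
  | cons k O ih =>
    have hk : k < 126 := hb k (by simp)
    have hk' : k < chevE7.nroots := hk
    obtain ⟨hkO, hO'⟩ := List.pairwise_cons.1 hO
    obtain ⟨h', hh', e1, e2⟩ := ih hO' (fun o ho => hb o (by simp [ho]))
      (fun o ho => hc o (by simp [ho]))
    have hck : c k ≠ 0 := hc k (by simp)
    obtain ⟨l, hl⟩ : IsSquare (c k)⁻¹ := isSquare_of_charTwo' _
    have hl0 : l ≠ 0 := by
      rintro rfl
      rw [mul_zero] at hl
      exact inv_ne_zero hck hl
    have hg_mem : hB.hg k l ∈ chevE7.group F := hB.H_le_group hT (hB.hg_mem hk' hl0)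
    have hconj : ∀ s, s < 126 → ∀ t : F, hB.hg k l * hB.xg s t * (hB.hg k l)⁻¹ =
        hB.xg s (l ^ chevE7.pairing k s * t) := fun s hs t => hB.hg_conj_xg hk' hs hl0 t
    refine ⟨hB.hg k l * h', mul_mem hg_mem hh', ?_, ?_⟩
    · rw [CG.lp_cons, CG.lp_cons]
      have a1 : h' * hB.xg k (c k) * h'⁻¹ = hB.xg k (c k) := by
        apply e2 k hk
        intro o ho
        exact F5_pair_symm ⟨k, hk⟩ ⟨o, hb o (by simp [ho])⟩ (hkO o ho)
      have a2 : hB.hg k l * hB.xg k (c k) * (hB.hg k l)⁻¹ = hB.xg k 1 := by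
        rw [hconj k hk, F5_pair_self ⟨k, hk⟩]
        congr 1
        have : l ^ (2 : ℤ) = l * l := by
          rw [zpow_ofNat, sq]
        rw [this, ← hl, inv_mul_cancel₀ hck]
      have a3 : hB.hg k l * CG.lp hB O (fun _ => 1) * (hB.hg k l)⁻¹ = CG.lp hB O (fun _ => 1) := by
        apply CG.lp_conj_triv
        intro s hs u
        have h3 := hconj s (hb s (by simp [hs])) u
        have h4 : chevE7.pairing k s = 0 := hkO s hs
        rw [h4, zpow_zero, one_mul] at h3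
        calc hB.hg k l * hB.xg s u = (hB.hg k l * hB.xg s u * (hB.hg k l)⁻¹) * hB.hg k l := by group
          _ = hB.xg s u * hB.hg k l := by rw [h3]
      calc hB.hg k l * h' * (hB.xg k (c k) * CG.lp hB O c) * (hB.hg k l * h')⁻¹
          = hB.hg k l * ((h' * hB.xg k (c k) * h'⁻¹) * (h' * CG.lp hB O c * h'⁻¹)) *
              (hB.hg k l)⁻¹ := by group
        _ = (hB.hg k l * hB.xg k (c k) * (hB.hg k l)⁻¹) *
              (hB.hg k l * CG.lp hB O (fun _ => 1) * (hB.hg k l)⁻¹) := by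
            rw [a1, e1]; group
        _ = hB.xg k 1 * CG.lp hB O (fun _ => 1) := by rw [a2, a3]
    · intro s hs hso t
      have b1 : h' * hB.xg s t * h'⁻¹ = hB.xg s t :=
        e2 s hs (fun o ho => hso o (by simp [ho])) t
      have b2 := hconj s hs t
      rw [hso k (by simp), zpow_zero, one_mul] at b2
      calc hB.hg k l * h' * hB.xg s t * (hB.hg k l * h')⁻¹
          = hB.hg k l * (h' * hB.xg s t * h'⁻¹) * (hB.hg k l)⁻¹ := by group
        _ = hB.xg s t := by rw [b1, b2]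

/-- [F5] torus. -/
theorem torus [Finite F] [CharP F 2] (O : List ℕ) (hO : O.Pairwise e7orth) (hb : ∀ o ∈ O, o < 126)
    (c : ℕ → F) (hc : ∀ o ∈ O, c o ≠ 0) :
    ∃ h ∈ chevE7.group F, h * CG.lp hB O c * h⁻¹ = CG.lp hB O (fun _ => 1) := by
  obtain ⟨h, hh, e, _⟩ := F5_aux hB O hO hb c hc
  exact ⟨h, hh, e⟩

end Cfsg.Agent.Lib.Helper52.E7I
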