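import Cfsg.Agent.Lib.Helper52.E7I.DefsE

set_option autoImplicit false

namespace Cfsg.Agent.Lib.Helper52.E7I

open Cfsg.Lie Cfsg.Agent.Lib.Helper18 Cfsg.Agent.Lib.Helper17 Cfsg.Agent.Lib.Helper36
  Cfsg.Agent.Lib.Helper6 Matrix

variable {F : Type*} [Field F] (hB : Base chevE7 F)

/-- [F6] Weyl group (copy of helper15's E8I/F6) -/
theorem weyl_move [CharP F 2] (L : List ℕ) (hL : ∀ i ∈ L, i < 7) (O : List ℕ) (hb : ∀ o ∈ O, o < 126) :
    hB.nW L ∈ chevE7.group F ∧ hB.nW L * CG.lp hB O (fun _ => 1) * (hB.nW L)⁻¹ =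
      CG.lp hB (O.map (wAct chevE7 L)) (fun _ => 1) := by
  have hT : Tab chevE7 := (tabs2_of_mem (D := chevE7) (by simp)).tab
  have hL' : ∀ i ∈ L, i < chevE7.rank := hL
  refine ⟨hB.N_le_group hT (hB.nW_mem hT hL'), ?_⟩
  induction O with
  | nil => simp
  | cons k O ih =>
    have hk : k < chevE7.nroots := hb k (by simp)
    obtain ⟨η, hη, h⟩ := hB.nW_conj_xg hT hL' hk
    have hη1 : η = 1 := by
      rcases hη with rfl | rfl
      · rfl
      · exact CharTwo.neg_eq 1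
    have ih' := ih (fun o ho => hb o (by simp [ho]))
    rw [List.map_cons, CG.lp_cons, CG.lp_cons, ← ih', ← mul_one (1 : F)]
    have h1 := h 1
    rw [hη1] at h1
    rw [← h1]
    simp only [mul_one]
    group

end Cfsg.Agent.Lib.Helper52.E7I
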