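import Cfsg.Agent.Lib.Helper52.E7I.DefsE

set_option autoImplicit false

namespace Cfsg.Agent.Lib.Helper52.E7I

open Cfsg.Lie Cfsg.Agent.Lib.Helper18 Cfsg.Agent.Lib.Helper17 Cfsg.Agent.Lib.Helper36
  Cfsg.Agent.Lib.Helper6 Matrix

theorem F7_tab : ∀ r s : Fin 126, chevE7.pairing r s = 0 →
    chevE7.commTerms r s = [] ∧ s.val ≠ r.val ∧ s.val ≠ chevE7.neg r := by
  decide +kernel

variable {F : Type*} [Field F] (hB : Base chevE7 F)

theorem F7_comm (r s : ℕ) (hr : r < 126) (hs : s < 126) (h : e7orth r s) (t u : F) :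
    hB.xg r t * hB.xg s u = hB.xg s u * hB.xg r t := by
  obtain ⟨h1, h2, h3⟩ := F7_tab ⟨r, hr⟩ ⟨s, hs⟩ h
  refine CG.comm_dvd hB (m := 0) (by simp) hr hs (Or.inr ⟨h2, h3, ?_⟩) t u
  intro c hc
  simp only at h1
  rw [h1] at hc
  simp at hc

/-- [F7] orthogonal root elements commute -/
theorem lp_perm (O O' : List ℕ) (hO : O.Pairwise e7orth) (hb : ∀ o ∈ O, o < 126) (hp : O.Perm O') :
    CG.lp hB O (fun _ => (1 : F)) = CG.lp hB O' (fun _ => 1) := by
  unfold CG.lp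
  apply List.Perm.prod_eq' (hp.map _)
  rw [List.pairwise_map]
  exact hO.imp_of_mem fun {a b} ha hb' hab => F7_comm hB a b (hb a ha) (hb b hb') hab 1 1

end Cfsg.Agent.Lib.Helper52.E7I
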