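import Cfsg.Agent.Lib.Helper52.E7I.DefsE

/-! # S2181 farm E7I (helper52), piece [M2] (helper84; copy of E6I N2) -/

set_option autoImplicit false

namespace Cfsg.Agent.Lib.Helper52.E7I

open Cfsg.Lie Cfsg.Agent.Lib.Helper18 Cfsg.Agent.Lib.Helper17 Cfsg.Agent.Lib.Helper36
  Cfsg.Agent.Lib.Helper6 Matrix

variable {F : Type*} [Field F] (hB : Base chevE7 F)

theorem M2_comm {r s : ℕ} (hr : r < chevE7.nroots) (hs : s < chevE7.nroots)
    (h : s ≠ r ∧ s ≠ chevE7.neg r ∧ chevE7.commTerms r s = []) (t u : F) :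
    hB.xg r t * hB.xg s u = hB.xg s u * hB.xg r t :=
  CG.comm_dvd hB (m := 0) (by simp) hr hs (Or.inr ⟨h.1, h.2.1, by rw [h.2.2]; simp⟩) t u

theorem M2_hD : chevE7 ∈ [chevG2, chevB2, chevD4, chevF4, chevE6, chevE7, chevE8] := by simp

theorem M2_tabPC : ∀ s ∈ S9, ∀ s' ∈ S9, s < chevE7.nroots ∧ s' < chevE7.nroots ∧
    (s' = s ∨ (s' ≠ s ∧ s' ≠ chevE7.neg s ∧ chevE7.commTerms s s' = [])) := by
  decide +kernel

theorem M2_PC : CG.PC hB S9 := by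
  intro s hs s' hs' t u
  obtain ⟨h1, h2, h3⟩ := M2_tabPC s hs s' hs'
  rcases h3 with rfl | h3
  · rw [hB.xg_add, hB.xg_add, add_comm]
  · exact M2_comm hB h1 h2 h3 t u

theorem M2_pos : ∀ r ∈ S9, chevE7.IsPosRoot r := by decide +kernel

theorem M2_sorted : S9.Pairwise (· < ·) := by decide

theorem M2_nodup : S9.Nodup := by decide

/-- the Weyl words -/
def M2Ls : List (List ℕ) :=
  [[],
  [4,2,0,3,2,5,4,3,5,6,4,5,2,4,3,2,0,2,3,1,4,6],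
  [6,5,4,3,6,5,4,5,1,3,4,6,0,2,5,4,0,3,6],
  [1,3,5,4,6,5,4,6,1,0,3,4,1,3,2,5,4,3,4],
  [6,3,4,1,3,5,0,4,2,1,5,0,3,2,1,3],
  [3,2,3,5,1,0,2,3,6,2,4,1,3,5,0,4,3]]

theorem M2_Ls_lt : ∀ L ∈ M2Ls, ∀ i ∈ L, i < chevE7.rank := by decide +kernel

theorem M2_Ls_pos : ∀ L ∈ M2Ls, ∀ s ∈ S9, chevE7.IsPosRoot (wAct chevE7 L s) := by decide +kernel

theorem M2_Ls_only : ∀ r : Fin 126, (∀ L ∈ M2Ls, chevE7.IsPosRoot (wAct chevE7 L r.val)) → r.val ∈ S9 := by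
  decide +kernel

theorem M2_lp_mul {L : List ℕ} (hc : CG.PC hB L) (d d' : ℕ → F) :
    CG.lp hB L d * CG.lp hB L d' = CG.lp hB L (fun s => d s + d' s) := by
  induction L with
  | nil => simp
  | cons k L ih =>
    rw [CG.lp_cons, CG.lp_cons, CG.lp_cons, ← ih hc.tail, ← hB.xg_add]
    have h1 : hB.xg k (d' k) * CG.lp hB L d = CG.lp hB L d * hB.xg k (d' k) :=
      CG.lp_comm hB (fun s hs u => hc k (by simp) s (by simp [hs]) _ u) d
    calc hB.xg k (d k) * CG.lp hB L d * (hB.xg k (d' k) * CG.lp hB L d')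
        = hB.xg k (d k) * (CG.lp hB L d * hB.xg k (d' k)) * CG.lp hB L d' := by group
      _ = hB.xg k (d k) * hB.xg k (d' k) * (CG.lp hB L d * CG.lp hB L d') := by rw [← h1]; group

/-- the subgroup of the `lp S9 d` with `d` supported on `T` -/
def M2Sg (T : ℕ → Prop) : Subgroup (GL chevE7.Idx F) where
  carrier := {g | ∃ d : ℕ → F, (∀ s, ¬ T s → d s = 0) ∧ g = CG.lp hB S9 d}
  one_mem' := ⟨fun _ => 0, fun _ _ => rfl, (CG.lp_zero hB S9).symm⟩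
  mul_mem' := by
    rintro _ _ ⟨d, hd, rfl⟩ ⟨d', hd', rfl⟩
    exact ⟨fun s => d s + d' s, fun s hs => by simp only [hd s hs, hd' s hs, add_zero],
      M2_lp_mul hB (M2_PC hB) d d'⟩
  inv_mem' := by
    rintro _ ⟨d, hd, rfl⟩
    refine ⟨fun s => - d s, fun s hs => by simp only [hd s hs, neg_zero], ?_⟩
    rw [inv_eq_iff_mul_eq_one, M2_lp_mul hB (M2_PC hB)]
    simp only [add_neg_cancel]
    exact CG.lp_zero hB S9

theorem M2_single_mem (T : ℕ → Prop) {k : ℕ} (hk : k ∈ S9) (hT : T k) (t : F) :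
    hB.xg k t ∈ M2Sg hB T := by
  refine ⟨CG.upd (fun _ => 0) k t, ?_, ?_⟩
  · intro s hs
    have : s ≠ k := by rintro rfl; exact hs hT
    simp [CG.upd, this]
  · rw [← CG.lp_mul_single hB M2_nodup hk (fun s hs e u => M2_PC hB k hk s hs e u), CG.lp_zero,
      one_mul]

/-- [M2] -/
theorem supp_S9 {n : GL chevE7.Idx F} {π : ℕ → ℕ} (hn : CG.GAct hB n π) {c c' : ℕ → F}
    (h : n * CG.lp hB S9 c * n⁻¹ = CG.lp hB S9 c') :
    ∀ s' ∈ S9, c' s' ≠ 0 → ∃ s ∈ S9, c s ≠ 0 ∧ π s = s' := by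
  have h1 : ∀ s ∈ S9, c s ≠ 0 → π s ∈ S9 := by
    intro s hs hcs
    have hlt : π s < 126 := (hn s (M2_pos s hs).1).1
    refine M2_Ls_only ⟨π s, hlt⟩ fun L hL => ?_
    exact CG.pos_of_word hB M2_hD hn M2_pos M2_sorted (M2_PC hB) h (M2_Ls_lt L hL) (M2_Ls_pos L hL)
      s hs hcs
  have h2 : n * CG.lp hB S9 c * n⁻¹ ∈ M2Sg hB (fun s' => ∃ s ∈ S9, c s ≠ 0 ∧ π s = s') := by
    apply CG.lp_conj_mem hB hn _ (fun s hs => (M2_pos s hs).1)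
    intro s hs hcs t
    exact M2_single_mem hB _ (h1 s hs hcs) ⟨s, hs, hcs, rfl⟩ t
  obtain ⟨d, hd, e⟩ := h2
  rw [h] at e
  have h3 := CG.lp_inj hB M2_hD M2_pos M2_sorted e
  intro s' hs' hc'
  by_contra hcon
  apply hc'
  rw [h3 s' hs', hd s' hcon]

end Cfsg.Agent.Lib.Helper52.E7I
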