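import Cfsg.Agent.Lib.Helper52.E7I.M1
import Cfsg.Agent.Lib.Helper52.E7I.M2

/-! # S2181 farm E7I (helper52), piece [M3] (after helper17's E8I.M3of) -/

set_option autoImplicit false

namespace Cfsg.Agent.Lib.Helper52.E7I

open Cfsg.Lie Cfsg.Agent.Lib.Helper18 Cfsg.Agent.Lib.Helper17 Cfsg.Agent.Lib.Helper36
  Cfsg.Agent.Lib.Helper6 Matrix

variable {F : Type*} [Field F] (hB : Base chevE7 F)

theorem M3_hD : chevE7 ∈ [chevG2, chevB2, chevD4, chevF4, chevE6, chevE7, chevE8] := by simp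

theorem M3_key [CharP F 2] {h : GL chevE7.Idx F} (hh : h ∈ chevE7.group F)
    {c c' : ℕ → F} (e : h * CG.lp hB S9 c * h⁻¹ = CG.lp hB S9 c') (H H' : ℤ)
    (hc : ∀ s ∈ S9, ht7 s < H → c s = 0) (hc' : ∀ s ∈ S9, ht7 s < H' → c' s = 0) :
    ∃ π : ℕ → ℕ,
      (∀ a b, a < chevE7.nroots → b < chevE7.nroots →
        chevE7.pairing (π a) (π b) = chevE7.pairing a b) ∧
      (∀ a, a < chevE7.nroots → π a < chevE7.nroots) ∧
      ∀ s' ∈ S9, ht7 s' = H' → c' s' ≠ 0 → ∃ s ∈ S9, H ≤ ht7 s ∧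
        (c 112 = 0 → c 115 = 0 → c 119 = 0 → s ≠ 112 ∧ s ≠ 115 ∧ s ≠ 119) ∧ π s = s' := by
  have hD := M3_hD
  have hT := tabs2_of_mem hD
  have hTt := hT.tab
  let X := bnData_of_mem F hD
  obtain ⟨b, hb, n, hn, u, hu, rfl⟩ := X.bruhat_normal_exists hh
  obtain ⟨u₁, hu₁, h₁, hh₁, rfl⟩ := hB.mem_B_iff.mp hb
  have hu' := Um_le_U n hu
  have hm : h₁ * n ∈ chevE7.monomialSubgroup F := mul_mem (Base.H_le_N hh₁) hn
  obtain ⟨d, ed, hd, hdz⟩ := conj_S9 hB hu' c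
  obtain ⟨d', ed', hd', -⟩ := conj_S9 hB (inv_mem hu₁) c'
  have hmain : (h₁ * n) * CG.lp hB S9 d * (h₁ * n)⁻¹ = CG.lp hB S9 d' := by
    rw [← ed, ← ed', ← e]
    group
  let w : ↥X.P.N := ⟨⟨h₁ * n, hB.N_le_group hTt hm⟩, (X.mem_N_iff _).2 hm⟩
  obtain ⟨π, -, hAct, -, hpr, -, -⟩ := CG.exists_act X w
  refine ⟨π, hpr, fun a ha => (hAct a ha).1, ?_⟩
  intro s' hs' hH' h0
  have e1 : d' s' = c' s' := hd' H' hc' s' hs' hH'.le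
  obtain ⟨s, hs, hs0, hs1⟩ := supp_S9 hB hAct hmain s' hs' (by rw [e1]; exact h0)
  refine ⟨s, hs, ?_, ?_, hs1⟩
  · by_contra hlt
    rw [not_le] at hlt
    exact hs0 (by rw [hd H hc s hs hlt.le]; exact hc s hs hlt)
  · intro z1 z2 z3
    obtain ⟨y1, y2, y3⟩ := hdz z1 z2 z3
    refine ⟨?_, ?_, ?_⟩ <;> rintro rfl
    · exact hs0 y1
    · exact hs0 y2
    · exact hs0 y3

/-- coefficient functions of the representatives -/
def M3c1 : ℕ → F := fun s => if s = 125 then 1 else 0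
def M3c2 : ℕ → F := fun s => if s = 118 ∨ s = 121 then 1 else 0
def M3c3 : ℕ → F := fun s => if s = 114 ∨ s = 116 ∨ s = 119 then 1 else 0
def M3c3b : ℕ → F := fun s => if s = 92 ∨ s = 107 ∨ s = 111 then 1 else 0
def M3c4 : ℕ → F := fun s => if s = 92 ∨ s = 107 ∨ s = 111 ∨ s = 112 then 1 else 0

theorem M3_z1 : z1 hB = CG.lp hB S9 M3c1 := by
  simp [z1, S9, M3c1]

theorem M3_z2 : z2 hB = CG.lp hB S9 M3c2 := by
  simp [z2, S9, M3c2]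

theorem M3_z3 : z3 hB = CG.lp hB S9 M3c3 := by
  simp [z3, S9, M3c3, mul_assoc]

theorem M3_z3b : z3b hB = CG.lp hB S9 M3c3b := by
  simp [z3b, S9, M3c3b, mul_assoc]

theorem M3_z4 : z4 hB = CG.lp hB S9 M3c4 := by
  simp [z4, S9, M3c4, mul_assoc]

theorem M3_T1 : ∀ a ∈ S9, 17 ≤ ht7 a → ∀ b ∈ S9, 17 ≤ ht7 b → chevE7.pairing a b ≠ 0 := by
  decide +kernel

theorem M3_T2 : ∀ a ∈ S9, 13 ≤ ht7 a → ∀ b ∈ S9, 13 ≤ ht7 b → chevE7.pairing a b = 0 →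
    ∀ c ∈ S9, 13 ≤ ht7 c → chevE7.pairing a c = 0 → chevE7.pairing b c ≠ 0 := by
  decide +kernel

theorem M3_T3 : ∀ a ∈ S9, 11 ≤ ht7 a → ∀ b ∈ S9, 11 ≤ ht7 b → chevE7.pairing a b = 0 →
    ∀ c ∈ S9, 11 ≤ ht7 c → chevE7.pairing a c = 0 → chevE7.pairing b c = 0 →
    ∀ d ∈ S9, 11 ≤ ht7 d → chevE7.pairing a d = 0 → chevE7.pairing b d = 0 →
      chevE7.pairing c d ≠ 0 := by
  decide +kernel

/-- orthogonal triples of height at least 11 lie in a `D₄` quadruple -/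
theorem M3_T3' : ∀ a ∈ S9, 11 ≤ ht7 a → ∀ b ∈ S9, 11 ≤ ht7 b → chevE7.pairing a b = 0 →
    ∀ c ∈ S9, 11 ≤ ht7 c → chevE7.pairing a c = 0 → chevE7.pairing b c = 0 → isT a b c := by
  unfold isT
  decide +kernel

theorem M3_notT : ¬ isT 92 107 111 := by
  unfold isT
  decide +kernel

/-- the roots of `S9` with `p7`-coefficient 1 -/
def M3S : List ℕ := [92, 107, 108, 111, 113, 114, 116, 117, 118, 120, 121, 122, 123, 124, 125]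

theorem M3_memS : ∀ a ∈ S9, a ≠ 112 → a ≠ 115 → a ≠ 119 → a ∈ M3S := by decide +kernel

theorem M3_T4' : ∀ a ∈ M3S, ∀ b ∈ M3S, chevE7.pairing a b = 0 →
    ∀ c ∈ M3S, chevE7.pairing a c = 0 → chevE7.pairing b c = 0 →
    ∀ d ∈ M3S, chevE7.pairing a d = 0 → chevE7.pairing b d = 0 → chevE7.pairing c d ≠ 0 := by
  decide +kernel

theorem M3_T4 : ∀ a ∈ S9, (a ≠ 112 ∧ a ≠ 115 ∧ a ≠ 119) → ∀ b ∈ S9, (b ≠ 112 ∧ b ≠ 115 ∧ b ≠ 119) →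
    chevE7.pairing a b = 0 →
    ∀ c ∈ S9, (c ≠ 112 ∧ c ≠ 115 ∧ c ≠ 119) → chevE7.pairing a c = 0 → chevE7.pairing b c = 0 →
    ∀ d ∈ S9, (d ≠ 112 ∧ d ≠ 115 ∧ d ≠ 119) → chevE7.pairing a d = 0 → chevE7.pairing b d = 0 →
      chevE7.pairing c d ≠ 0 := by
  intro a ha ha' b hb hb' o1 c hc hc' o2 o3 d hd hd' o4 o5
  exact M3_T4' a (M3_memS a ha ha'.1 ha'.2.1 ha'.2.2) b (M3_memS b hb hb'.1 hb'.2.1 hb'.2.2) o1
    c (M3_memS c hc hc'.1 hc'.2.1 hc'.2.2) o2 o3 d (M3_memS d hd hd'.1 hd'.2.1 hd'.2.2) o4 o5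

theorem M3_lt : ∀ a ∈ S9, a < chevE7.nroots := by decide +kernel

/-- vanishing below the level -/
theorem M3_v1 : ∀ s ∈ S9, ht7 s < 17 → (M3c1 s : F) = 0 := by
  have : ∀ s ∈ S9, ht7 s < 17 → s ≠ 125 := by decide +kernel
  intro s hs h
  simp [M3c1, this s hs h]

theorem M3_v2 : ∀ s ∈ S9, ht7 s < 13 → (M3c2 s : F) = 0 := by
  have : ∀ s ∈ S9, ht7 s < 13 → s ≠ 118 ∧ s ≠ 121 := by decide +kernel
  intro s hs h
  simp [M3c2, this s hs h]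

theorem M3_v3 : ∀ s ∈ S9, ht7 s < 11 → (M3c3 s : F) = 0 := by
  have : ∀ s ∈ S9, ht7 s < 11 → s ≠ 114 ∧ s ≠ 116 ∧ s ≠ 119 := by decide +kernel
  intro s hs h
  simp [M3c3, this s hs h]

theorem M3_v3b : ∀ s ∈ S9, ht7 s < 9 → (M3c3b s : F) = 0 := by
  have : ∀ s ∈ S9, ¬ ht7 s < 9 := by decide +kernel
  intro s hs h
  exact absurd h (this s hs)

theorem M3_v4 : ∀ s ∈ S9, ht7 s < 9 → (M3c4 s : F) = 0 := by
  have : ∀ s ∈ S9, ¬ ht7 s < 9 := by decide +kernel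
  intro s hs h
  exact absurd h (this s hs)

section
variable {π : ℕ → ℕ} (hpr : ∀ a b, a < chevE7.nroots → b < chevE7.nroots →
      chevE7.pairing (π a) (π b) = chevE7.pairing a b)
include hpr

theorem M3_from1 {Q : ℕ → Prop} {s1 s2 : ℕ}
    (h1 : ∃ s ∈ S9, (17 : ℤ) ≤ ht7 s ∧ Q s ∧ π s = s1) (h2 : ∃ s ∈ S9, (17 : ℤ) ≤ ht7 s ∧ Q s ∧ π s = s2)
    (o12 : chevE7.pairing s1 s2 = 0) : False := by
  obtain ⟨a, ha, ha', -, rfl⟩ := h1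
  obtain ⟨b, hb, hb', -, rfl⟩ := h2
  rw [hpr a b (M3_lt a ha) (M3_lt b hb)] at o12
  exact M3_T1 a ha ha' b hb hb' o12

theorem M3_from2 {Q : ℕ → Prop} {s1 s2 s3 : ℕ}
    (h1 : ∃ s ∈ S9, (13 : ℤ) ≤ ht7 s ∧ Q s ∧ π s = s1) (h2 : ∃ s ∈ S9, (13 : ℤ) ≤ ht7 s ∧ Q s ∧ π s = s2)
    (h3 : ∃ s ∈ S9, (13 : ℤ) ≤ ht7 s ∧ Q s ∧ π s = s3)
    (o12 : chevE7.pairing s1 s2 = 0) (o13 : chevE7.pairing s1 s3 = 0)
    (o23 : chevE7.pairing s2 s3 = 0) : False := by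
  obtain ⟨a, ha, ha', -, rfl⟩ := h1
  obtain ⟨b, hb, hb', -, rfl⟩ := h2
  obtain ⟨c, hc, hc', -, rfl⟩ := h3
  rw [hpr a b (M3_lt a ha) (M3_lt b hb)] at o12
  rw [hpr a c (M3_lt a ha) (M3_lt c hc)] at o13
  rw [hpr b c (M3_lt b hb) (M3_lt c hc)] at o23
  exact M3_T2 a ha ha' b hb hb' o12 c hc hc' o13 o23

theorem M3_from3 {Q : ℕ → Prop} {s1 s2 s3 s4 : ℕ}
    (h1 : ∃ s ∈ S9, (11 : ℤ) ≤ ht7 s ∧ Q s ∧ π s = s1) (h2 : ∃ s ∈ S9, (11 : ℤ) ≤ ht7 s ∧ Q s ∧ π s = s2)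
    (h3 : ∃ s ∈ S9, (11 : ℤ) ≤ ht7 s ∧ Q s ∧ π s = s3) (h4 : ∃ s ∈ S9, (11 : ℤ) ≤ ht7 s ∧ Q s ∧ π s = s4)
    (o12 : chevE7.pairing s1 s2 = 0) (o13 : chevE7.pairing s1 s3 = 0)
    (o23 : chevE7.pairing s2 s3 = 0) (o14 : chevE7.pairing s1 s4 = 0)
    (o24 : chevE7.pairing s2 s4 = 0) (o34 : chevE7.pairing s3 s4 = 0) : False := by
  obtain ⟨a, ha, ha', -, rfl⟩ := h1
  obtain ⟨b, hb, hb', -, rfl⟩ := h2
  obtain ⟨c, hc, hc', -, rfl⟩ := h3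
  obtain ⟨d, hd, hd', -, rfl⟩ := h4
  rw [hpr a b (M3_lt a ha) (M3_lt b hb)] at o12
  rw [hpr a c (M3_lt a ha) (M3_lt c hc)] at o13
  rw [hpr b c (M3_lt b hb) (M3_lt c hc)] at o23
  rw [hpr a d (M3_lt a ha) (M3_lt d hd)] at o14
  rw [hpr b d (M3_lt b hb) (M3_lt d hd)] at o24
  rw [hpr c d (M3_lt c hc) (M3_lt d hd)] at o34
  exact M3_T3 a ha ha' b hb hb' o12 c hc hc' o13 o23 d hd hd' o14 o24 o34

theorem M3_from3' (hlt : ∀ a, a < chevE7.nroots → π a < chevE7.nroots) {Q : ℕ → Prop} {s1 s2 s3 : ℕ}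
    (h1 : ∃ s ∈ S9, (11 : ℤ) ≤ ht7 s ∧ Q s ∧ π s = s1) (h2 : ∃ s ∈ S9, (11 : ℤ) ≤ ht7 s ∧ Q s ∧ π s = s2)
    (h3 : ∃ s ∈ S9, (11 : ℤ) ≤ ht7 s ∧ Q s ∧ π s = s3)
    (o12 : chevE7.pairing s1 s2 = 0) (o13 : chevE7.pairing s1 s3 = 0)
    (o23 : chevE7.pairing s2 s3 = 0) : isT s1 s2 s3 := by
  obtain ⟨a, ha, ha', -, rfl⟩ := h1
  obtain ⟨b, hb, hb', -, rfl⟩ := h2
  obtain ⟨c, hc, hc', -, rfl⟩ := h3
  rw [hpr a b (M3_lt a ha) (M3_lt b hb)] at o12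
  rw [hpr a c (M3_lt a ha) (M3_lt c hc)] at o13
  rw [hpr b c (M3_lt b hb) (M3_lt c hc)] at o23
  obtain ⟨r, r1, r2, r3⟩ := M3_T3' a ha ha' b hb hb' o12 c hc hc' o13 o23
  refine ⟨⟨π r, hlt r r.2⟩, ?_, ?_, ?_⟩
  · show chevE7.pairing (π r) (π a) = 1
    rw [hpr r a r.2 (M3_lt a ha), r1]
  · show chevE7.pairing (π r) (π b) = 1
    rw [hpr r b r.2 (M3_lt b hb), r2]
  · show chevE7.pairing (π r) (π c) = 1
    rw [hpr r c r.2 (M3_lt c hc), r3]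

theorem M3_from4 {s1 s2 s3 s4 : ℕ}
    (h1 : ∃ s ∈ S9, (9 : ℤ) ≤ ht7 s ∧ (s ≠ 112 ∧ s ≠ 115 ∧ s ≠ 119) ∧ π s = s1)
    (h2 : ∃ s ∈ S9, (9 : ℤ) ≤ ht7 s ∧ (s ≠ 112 ∧ s ≠ 115 ∧ s ≠ 119) ∧ π s = s2)
    (h3 : ∃ s ∈ S9, (9 : ℤ) ≤ ht7 s ∧ (s ≠ 112 ∧ s ≠ 115 ∧ s ≠ 119) ∧ π s = s3)
    (h4 : ∃ s ∈ S9, (9 : ℤ) ≤ ht7 s ∧ (s ≠ 112 ∧ s ≠ 115 ∧ s ≠ 119) ∧ π s = s4)
    (o12 : chevE7.pairing s1 s2 = 0) (o13 : chevE7.pairing s1 s3 = 0)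
    (o23 : chevE7.pairing s2 s3 = 0) (o14 : chevE7.pairing s1 s4 = 0)
    (o24 : chevE7.pairing s2 s4 = 0) (o34 : chevE7.pairing s3 s4 = 0) : False := by
  obtain ⟨a, ha, -, ha', rfl⟩ := h1
  obtain ⟨b, hb, -, hb', rfl⟩ := h2
  obtain ⟨c, hc, -, hc', rfl⟩ := h3
  obtain ⟨d, hd, -, hd', rfl⟩ := h4
  rw [hpr a b (M3_lt a ha) (M3_lt b hb)] at o12
  rw [hpr a c (M3_lt a ha) (M3_lt c hc)] at o13
  rw [hpr b c (M3_lt b hb) (M3_lt c hc)] at o23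
  rw [hpr a d (M3_lt a ha) (M3_lt d hd)] at o14
  rw [hpr b d (M3_lt b hb) (M3_lt d hd)] at o24
  rw [hpr c d (M3_lt c hc) (M3_lt d hd)] at o34
  exact M3_T4 a ha ha' b hb hb' o12 c hc hc' o13 o23 d hd hd' o14 o24 o34

end

theorem not_conj7 [CharP F 2] {h : GL chevE7.Idx F} (hh : h ∈ chevE7.group F) :
    h * z1 hB * h⁻¹ ≠ z2 hB ∧ h * z1 hB * h⁻¹ ≠ z3 hB ∧ h * z1 hB * h⁻¹ ≠ z3b hB ∧ h * z1 hB * h⁻¹ ≠ z4 hB ∧
    h * z2 hB * h⁻¹ ≠ z3 hB ∧ h * z2 hB * h⁻¹ ≠ z3b hB ∧ h * z2 hB * h⁻¹ ≠ z4 hB ∧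
    h * z3 hB * h⁻¹ ≠ z3b hB ∧ h * z3 hB * h⁻¹ ≠ z4 hB ∧ h * z3b hB * h⁻¹ ≠ z4 hB := by
  rw [M3_z1, M3_z2, M3_z3, M3_z3b, M3_z4]
  refine ⟨?_, ?_, ?_, ?_, ?_, ?_, ?_, ?_, ?_, ?_⟩
  · intro e
    obtain ⟨π, hpr, -, hs⟩ := M3_key hB hh e 17 13 M3_v1 M3_v2
    exact M3_from1 hpr (hs 118 (by simp [S9]) (by decide +kernel) (by simp [M3c2]))
      (hs 121 (by simp [S9]) (by decide +kernel) (by simp [M3c2])) (by decide +kernel)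
  · intro e
    obtain ⟨π, hpr, -, hs⟩ := M3_key hB hh e 17 11 M3_v1 M3_v3
    exact M3_from1 hpr (hs 114 (by simp [S9]) (by decide +kernel) (by simp [M3c3]))
      (hs 116 (by simp [S9]) (by decide +kernel) (by simp [M3c3])) (by decide +kernel)
  · intro e
    obtain ⟨π, hpr, -, hs⟩ := M3_key hB hh e 17 9 M3_v1 M3_v3b
    exact M3_from1 hpr (hs 92 (by simp [S9]) (by decide +kernel) (by simp [M3c3b]))
      (hs 107 (by simp [S9]) (by decide +kernel) (by simp [M3c3b])) (by decide +kernel)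
  · intro e
    obtain ⟨π, hpr, -, hs⟩ := M3_key hB hh e 17 9 M3_v1 M3_v4
    exact M3_from1 hpr (hs 92 (by simp [S9]) (by decide +kernel) (by simp [M3c4]))
      (hs 107 (by simp [S9]) (by decide +kernel) (by simp [M3c4])) (by decide +kernel)
  · intro e
    obtain ⟨π, hpr, -, hs⟩ := M3_key hB hh e 13 11 M3_v2 M3_v3
    exact M3_from2 hpr (hs 114 (by simp [S9]) (by decide +kernel) (by simp [M3c3]))
      (hs 116 (by simp [S9]) (by decide +kernel) (by simp [M3c3]))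
      (hs 119 (by simp [S9]) (by decide +kernel) (by simp [M3c3]))
      (by decide +kernel) (by decide +kernel) (by decide +kernel)
  · intro e
    obtain ⟨π, hpr, -, hs⟩ := M3_key hB hh e 13 9 M3_v2 M3_v3b
    exact M3_from2 hpr (hs 92 (by simp [S9]) (by decide +kernel) (by simp [M3c3b]))
      (hs 107 (by simp [S9]) (by decide +kernel) (by simp [M3c3b]))
      (hs 111 (by simp [S9]) (by decide +kernel) (by simp [M3c3b]))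
      (by decide +kernel) (by decide +kernel) (by decide +kernel)
  · intro e
    obtain ⟨π, hpr, -, hs⟩ := M3_key hB hh e 13 9 M3_v2 M3_v4
    exact M3_from2 hpr (hs 92 (by simp [S9]) (by decide +kernel) (by simp [M3c4]))
      (hs 107 (by simp [S9]) (by decide +kernel) (by simp [M3c4]))
      (hs 111 (by simp [S9]) (by decide +kernel) (by simp [M3c4]))
      (by decide +kernel) (by decide +kernel) (by decide +kernel)
  · intro e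
    obtain ⟨π, hpr, hlt, hs⟩ := M3_key hB hh e 11 9 M3_v3 M3_v3b
    exact M3_notT (M3_from3' hpr hlt (hs 92 (by simp [S9]) (by decide +kernel) (by simp [M3c3b]))
      (hs 107 (by simp [S9]) (by decide +kernel) (by simp [M3c3b]))
      (hs 111 (by simp [S9]) (by decide +kernel) (by simp [M3c3b]))
      (by decide +kernel) (by decide +kernel) (by decide +kernel))
  · intro e
    obtain ⟨π, hpr, -, hs⟩ := M3_key hB hh e 11 9 M3_v3 M3_v4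
    exact M3_from3 hpr (hs 92 (by simp [S9]) (by decide +kernel) (by simp [M3c4]))
      (hs 107 (by simp [S9]) (by decide +kernel) (by simp [M3c4]))
      (hs 111 (by simp [S9]) (by decide +kernel) (by simp [M3c4]))
      (hs 112 (by simp [S9]) (by decide +kernel) (by simp [M3c4]))
      (by decide +kernel) (by decide +kernel) (by decide +kernel)
      (by decide +kernel) (by decide +kernel) (by decide +kernel)
  · intro e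
    obtain ⟨π, hpr, -, hs⟩ := M3_key hB hh e 9 9 M3_v3b M3_v4
    have hz : ∀ s' ∈ S9, ht7 s' = 9 → (M3c4 s' : F) ≠ 0 → ∃ s ∈ S9, (9 : ℤ) ≤ ht7 s ∧
        (s ≠ 112 ∧ s ≠ 115 ∧ s ≠ 119) ∧ π s = s' := by
      intro s' h1 h2 h3
      obtain ⟨s, q1, q2, q3, q4⟩ := hs s' h1 h2 h3
      exact ⟨s, q1, q2, q3 (by simp [M3c3b]) (by simp [M3c3b]) (by simp [M3c3b]), q4⟩
    exact M3_from4 hpr (hz 92 (by simp [S9]) (by decide +kernel) (by simp [M3c4]))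
      (hz 107 (by simp [S9]) (by decide +kernel) (by simp [M3c4]))
      (hz 111 (by simp [S9]) (by decide +kernel) (by simp [M3c4]))
      (hz 112 (by simp [S9]) (by decide +kernel) (by simp [M3c4]))
      (by decide +kernel) (by decide +kernel) (by decide +kernel)
      (by decide +kernel) (by decide +kernel) (by decide +kernel)

end Cfsg.Agent.Lib.Helper52.E7I
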