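import Cfsg.Agent.Lib.Helper52.E7I.DefsE

set_option autoImplicit false

namespace Cfsg.Agent.Lib.Helper52.E7I

/-- [NC] pure group theory -/
theorem ncard_five {G : Type*} [Group G] (y : Fin 5 → G) (hy : ∀ i, orderOf (y i) = 2)
    (hex : ∀ g : G, orderOf g = 2 → ∃ i, IsConj g (y i)) (hne : ∀ i j, IsConj (y i) (y j) → i = j) :
    (ConjClasses.mk '' {g : G | orderOf g = 2}).ncard = 5 := by
  have hinj : Function.Injective (fun i : Fin 5 => ConjClasses.mk (y i)) := by
    intro i j hij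
    exact hne i j (ConjClasses.mk_eq_mk_iff_isConj.1 hij)
  have himg : ConjClasses.mk '' {g : G | orderOf g = 2} =
      (fun i : Fin 5 => ConjClasses.mk (y i)) '' Set.univ := by
    ext c
    constructor
    · rintro ⟨g, hg, rfl⟩
      obtain ⟨i, hi⟩ := hex g hg
      exact ⟨i, trivial, (ConjClasses.mk_eq_mk_iff_isConj.2 hi).symm⟩
    · rintro ⟨i, -, rfl⟩
      exact ⟨y i, hy i, rfl⟩
  rw [himg, Set.ncard_image_of_injective _ hinj, Set.ncard_univ, Nat.card_fin]

end Cfsg.Agent.Lib.Helper52.E7I
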