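import Cfsg.Agent.Lib.Helper52.E7I.DefsE

set_option autoImplicit false

namespace Cfsg.Agent.Lib.Helper52.E7I

open Cfsg.Lie Cfsg.Agent.Lib.Helper18 Cfsg.Agent.Lib.Helper17 Cfsg.Agent.Lib.Helper36
  Cfsg.Agent.Lib.Helper6 Matrix

/-- [W] explicit words (`decide +kernel`). -/
theorem words : [125, 92].map (wAct chevE7 [1,3,2,0]) = [118, 121] ∧
    [125, 92, 63].map (wAct chevE7 [2,3,0,2,1,3,4,5,1,3,2,0]) = [92, 107, 111] ∧
    [125, 92, 87].map (wAct chevE7 [1,3,4,5,1,3,2,0]) = [114, 116, 119] ∧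
    [125, 92, 63, 87].map (wAct chevE7 [2,3,0,2,1,3,4,5,0,2,1,3,2,0]) = [92, 107, 111, 112] := by
  decide +kernel

end Cfsg.Agent.Lib.Helper52.E7I
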