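import Cfsg.Agent.Lib.Helper52.E7I.F1
import Cfsg.Agent.Lib.Helper52.E7I.F2
import Cfsg.Agent.Lib.Helper52.E7I.F3
import Cfsg.Agent.Lib.Helper52.E7I.F4
import Cfsg.Agent.Lib.Helper52.E7I.F5
import Cfsg.Agent.Lib.Helper52.E7I.F6
import Cfsg.Agent.Lib.Helper52.E7I.F7
import Cfsg.Agent.Lib.Helper52.E7I.F10
import Cfsg.Agent.Lib.Helper52.E7I.F11
import Cfsg.Agent.Lib.Helper52.E7I.M3
import Cfsg.Agent.Lib.Helper52.E7I.C1
import Cfsg.Agent.Lib.Helper52.E7I.C2
import Cfsg.Agent.Lib.Helper52.E7I.C3a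
import Cfsg.Agent.Lib.Helper52.E7I.C3b
import Cfsg.Agent.Lib.Helper52.E7I.C3c
import Cfsg.Agent.Lib.Helper52.E7I.C4
import Cfsg.Agent.Lib.Helper52.E7I.C5
import Cfsg.Agent.Lib.Helper52.E7I.W
import Cfsg.Agent.Lib.Helper52.E7I.NC

set_option autoImplicit false

/-! # involutions of `E₇(2^a)`: assembly (helper52, after helper17's E6I.Final) -/

namespace Cfsg.Agent.Lib.Helper52.E7I

open Cfsg.Lie Cfsg.Agent.Lib.Helper18 Cfsg.Agent.Lib.Helper17 Cfsg.Agent.Lib.Helper36
  Cfsg.Agent.Lib.Helper6 Matrix Cfsg.Agent.Lib.Helper17.E6I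

variable {F : Type*} [Field F] (hB : Base chevE7 F)

/-- the instance -/
def e7RS [CharP F 2] : RS (GL chevE7.Idx F) F where
  lo := 63
  n := 126
  x := hB.xg
  add := e7add
  orth := e7orth
  x_add r t u := hB.xg_add r t u
  comm_none r s h1 h2 h3 h4 h t u := e7_comm_none hB r s h1 h2 h3 h4 h t u
  conj_some r s k h1 h2 h3 h4 h t u := e7_conj_some hB r s k h1 h2 h3 h4 h t u
  add_lt := e7_add_lt
  add_symm := e7_add_symm
  add_mono := e7_add_mono
  inj c c' h r h0 h1 := e7_inj hB c c' h r h0 h1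
  tri := e7_tri
  orth_none := e7_orth_none
  orth_add := e7_orth_add
  orth_sub := e7_orth_sub
  good_add := e7_good_add

theorem Good7.of_eq {g g' h : GL chevE7.Idx F} (hh : h ∈ chevE7.group F) (e : h * g * h⁻¹ = g')
    (H : Good7 hB g') : Good7 hB g := by
  obtain ⟨k, hk, e'⟩ := H
  refine ⟨k * h, mul_mem hk hh, ?_⟩
  rw [CG.conj_mul', e]
  exact e'

theorem e7add_bd {a d k : ℕ} (h : e7add a d = some k) : 63 ≤ a ∧ a < 126 ∧ 63 ≤ d ∧ d < 126 := by
  unfold e7add at h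
  by_contra hcon
  rw [if_neg hcon] at h
  exact absurd h (by simp)

theorem closed_all [CharP F 2] : Closed (e7RS hB) (fun r => 63 ≤ r ∧ r < 126) where
  bd r hr := hr
  add a b k ha hb hk := by
    have := e7_add_lt a b k hk
    exact ⟨by omega, this.2.2⟩
  sub a d k ha hk hd := by
    have := e7add_bd hd
    exact ⟨this.2.2.1, this.2.2.2⟩

theorem U_le_V [CharP F 2] : chevE7.posUnipotent F ≤ V (e7RS hB) (fun r => 63 ≤ r ∧ r < 126) 63 := by
  rw [hB.posUnipotent_eq, Subgroup.closure_le]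
  rintro _ ⟨r, t, hr, rfl⟩
  apply Subgroup.subset_closure
  have h1 : r < 126 := hr.1
  have h2 : 63 ≤ r := by
    have key : ∀ r : Fin 126, chevE7.IsPosRoot r → 63 ≤ r.val := by decide +kernel
    exact key ⟨r, h1⟩ hr
  exact ⟨r, t, ⟨h2, h1⟩, h2, rfl⟩

theorem V_le_group [CharP F 2] (k : ℕ) : V (e7RS hB) (fun r => 63 ≤ r ∧ r < 126) k ≤ chevE7.group F := by
  rw [V, Subgroup.closure_le]
  rintro _ ⟨r, t, hr, -, rfl⟩
  exact hB.xg_mem_group hr.2 t

theorem good_of_map [CharP F 2] {O : List ℕ} (hO : OL O) (L : List ℕ) (hL : ∀ i ∈ L, i < 7)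
    (H : Good7 hB (CG.lp hB (O.map (wAct chevE7 L)) (fun _ => 1))) :
    Good7 hB (CG.lp hB O (fun _ => 1)) := by
  obtain ⟨hm, he⟩ := weyl_move hB L hL O hO.2
  exact Good7.of_eq hB hm he H

theorem good_of_perm {O O' : List ℕ} (hO : OL O) (hp : O.Perm O')
    (H : Good7 hB (CG.lp hB O' (fun _ => 1))) : Good7 hB (CG.lp hB O (fun _ => 1)) := by
  rw [lp_perm hB O O' hO.1 hO.2 hp]
  exact H

theorem OL_sublist {O O' : List ℕ} (hs : O'.Sublist O) (hO : OL O) : OL O' :=
  ⟨hO.1.sublist hs, fun o ho => hO.2 o (hs.subset ho)⟩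

theorem OL_head3 {a b c d : ℕ} {R : List ℕ} (h : OL (a :: b :: c :: d :: R)) :
    d < 126 ∧ e7orth a d ∧ e7orth b d ∧ e7orth c d := by
  obtain ⟨h1, h2⟩ := h
  simp only [List.pairwise_cons] at h1
  exact ⟨h2 d (by simp), h1.1 d (by simp), h1.2.1 d (by simp), h1.2.2.1 d (by simp)⟩

/-- the induction hypothesis -/
def IH (n : ℕ) : Prop :=
  ∀ O : List ℕ, OL O → O ≠ [] → O.length < n → Good7 hB (CG.lp hB O (fun _ => 1))

theorem fuse_std [CharP F 2] (n : ℕ) (ih : IH hB n) {R : List ℕ} (hO : OL (73 :: 87 :: 66 :: 78 :: R))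
    (hlen : (73 :: 87 :: 66 :: 78 :: R).length = n) :
    Good7 hB (CG.lp hB (73 :: 87 :: 66 :: 78 :: R) (fun _ => 1)) := by
  obtain ⟨g, hg, e⟩ := fusion7 hB R hO
  refine Good7.of_eq hB hg e ?_
  apply ih
  · have h1 : OL (73 :: 66 :: 78 :: R) :=
      OL_sublist (List.Sublist.cons_cons _ (List.Sublist.cons _ (List.Sublist.refl _))) hO
    exact OL_perm (List.Perm.cons _ (List.Perm.swap _ _ _)) h1
  · simp
  · simp only [List.length_cons] at hlen ⊢
    omega

theorem fuse [CharP F 2] (n : ℕ) (ih : IH hB n) {a b c d : ℕ} {R : List ℕ}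
    (hO : OL (a :: b :: c :: d :: R)) (hlen : (a :: b :: c :: d :: R).length = n)
    (hD : isD4 a b c d) : Good7 hB (CG.lp hB (a :: b :: c :: d :: R) (fun _ => 1)) := by
  obtain ⟨L, hL, hc⟩ := cascade3 _ hO (by simp)
  apply good_of_map hB hO L hL
  have hO1 := OL_map L hL hO
  have hD1 := isD4_map L hL (hO.2 a (by simp)) (hO.2 b (by simp)) (hO.2 c (by simp))
    (hO.2 d (by simp)) hD
  simp only [List.map_cons] at hc hO1 ⊢
  rcases hc with hc | hc | ⟨O2, hc⟩ | ⟨O2, hc⟩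
  · simp at hc
  · simp at hc
  · simp only [List.cons.injEq] at hc
    obtain ⟨e1, e2, e3, -⟩ := hc
    rw [e1, e2, e3] at hD1
    exact absurd hD1 (not_isD4 _ (OL_head3 hO1).1)
  · simp only [List.cons.injEq] at hc
    obtain ⟨e1, e2, e3, -⟩ := hc
    rw [e1, e2, e3] at hD1 hO1 ⊢
    obtain ⟨q0, q1, q2, q3⟩ := OL_head3 hO1
    obtain ⟨L2, hL2, hp⟩ := d4std _ q0 q1 q2 q3 hD1
    apply good_of_map hB hO1 L2 hL2
    have hO2 := OL_map L2 hL2 hO1
    have hp2 : ((125 :: 92 :: 87 :: wAct chevE7 L d :: R.map (wAct chevE7 L)).map (wAct chevE7 L2)).Perm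
        (73 :: 87 :: 66 :: 78 :: (R.map (wAct chevE7 L)).map (wAct chevE7 L2)) :=
      hp.append_right ((R.map (wAct chevE7 L)).map (wAct chevE7 L2))
    apply good_of_perm hB hO2 hp2
    apply fuse_std hB n ih (OL_perm hp2 hO2)
    simp only [List.length_cons, List.length_map] at hlen ⊢
    exact hlen

theorem good_std4 [CharP F 2] (n : ℕ) (ih : IH hB n) {R : List ℕ} (hO : OL (125 :: 92 :: 63 :: 87 :: R))
    (hlen : (125 :: 92 :: 63 :: 87 :: R).length = n) :
    Good7 hB (CG.lp hB (125 :: 92 :: 63 :: 87 :: R) (fun _ => 1)) := by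
  cases R with
  | nil =>
    apply good_of_map hB hO [2,3,0,2,1,3,4,5,0,2,1,3,2,0] (by decide)
    rw [words.2.2.2]
    exact ⟨1, one_mem _, Or.inr (Or.inr (Or.inr (Or.inr (by simp [CG.lp, z4, mul_assoc]))))⟩
  | cons o5 R =>
    have h5 : OL [125, 92, 63, 87, o5] := by
      apply OL_sublist _ hO
      simp
    rcases five o5 h5 with h | h | h
    · have hp : (125 :: 92 :: 63 :: 87 :: o5 :: R).Perm (125 :: 92 :: 87 :: o5 :: 63 :: R) :=
        List.Perm.cons _ (List.Perm.cons _ (List.perm_middle (l₁ := [87, o5])).symm)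
      apply good_of_perm hB hO hp
      exact fuse hB n ih (OL_perm hp hO) (by rw [← hlen]; simp) h
    · have hp : (125 :: 92 :: 63 :: 87 :: o5 :: R).Perm (125 :: 63 :: 87 :: o5 :: 92 :: R) :=
        List.Perm.cons _ (List.perm_middle (l₁ := [63, 87, o5])).symm
      apply good_of_perm hB hO hp
      exact fuse hB n ih (OL_perm hp hO) (by rw [← hlen]; simp) h
    · have hp : (125 :: 92 :: 63 :: 87 :: o5 :: R).Perm (92 :: 63 :: 87 :: o5 :: 125 :: R) :=
        (List.perm_middle (l₁ := [92, 63, 87, o5])).symm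
      apply good_of_perm hB hO hp
      exact fuse hB n ih (OL_perm hp hO) (by rw [← hlen]; simp) h

theorem good_orth7 [CharP F 2] : ∀ (n : ℕ) (O : List ℕ), O.length = n → OL O → O ≠ [] →
    Good7 hB (CG.lp hB O (fun _ => 1)) := by
  intro n
  induction n using Nat.strong_induction_on with
  | _ n ih0 =>
  intro O hlen hO hne
  have ih : IH hB n := fun O' h1 h2 h3 => ih0 _ h3 O' rfl h1 h2
  obtain ⟨L, hL, hc⟩ := cascade3 O hO hne
  apply good_of_map hB hO L hL
  have hO1 := OL_map L hL hO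
  have hlen1 : (O.map (wAct chevE7 L)).length = n := by simp [hlen]
  generalize O.map (wAct chevE7 L) = O1 at hc hO1 hlen1 ⊢
  rcases hc with rfl | rfl | ⟨O2, rfl⟩ | ⟨O2, rfl⟩
  · exact ⟨1, one_mem _, Or.inl (by simp [CG.lp, z1])⟩
  · apply good_of_map hB hO1 [1,3,2,0] (by decide)
    rw [words.1]
    exact ⟨1, one_mem _, Or.inr (Or.inl (by simp [CG.lp, z2]))⟩
  · cases O2 with
    | nil =>
      apply good_of_map hB hO1 [2,3,0,2,1,3,4,5,1,3,2,0] (by decide)
      rw [words.2.1]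
      exact ⟨1, one_mem _, Or.inr (Or.inr (Or.inr (Or.inl (by simp [CG.lp, z3b, mul_assoc]))))⟩
    | cons o4 O3 =>
      obtain ⟨q0, q1, q2, q3⟩ := OL_head3 hO1
      obtain ⟨L2, hL2, f1, f2, f3, f4⟩ := fourthA o4 q0 q1 q2 q3
      apply good_of_map hB hO1 L2 hL2
      have hO2 := OL_map L2 hL2 hO1
      simp only [List.map_cons, f1, f2, f3, f4] at hO2 ⊢
      apply good_std4 hB n ih hO2
      simp only [List.length_cons, List.length_map] at hlen1 ⊢
      exact hlen1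
  · cases O2 with
    | nil =>
      apply good_of_map hB hO1 [1,3,4,5,1,3,2,0] (by decide)
      rw [words.2.2.1]
      exact ⟨1, one_mem _, Or.inr (Or.inr (Or.inl (by simp [CG.lp, z3, mul_assoc])))⟩
    | cons o4 O3 =>
      obtain ⟨q0, q1, q2, q3⟩ := OL_head3 hO1
      obtain ⟨L2, hL2, hp⟩ := fourthB o4 q0 q1 q2 q3
      apply good_of_map hB hO1 L2 hL2
      have hO2 := OL_map L2 hL2 hO1
      rcases hp with hp | hp
      · have hp2 : ((125 :: 92 :: 87 :: o4 :: O3).map (wAct chevE7 L2)).Perm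
            (125 :: 92 :: 63 :: 87 :: O3.map (wAct chevE7 L2)) :=
          hp.append_right (O3.map (wAct chevE7 L2))
        apply good_of_perm hB hO2 hp2
        apply good_std4 hB n ih (OL_perm hp2 hO2)
        simp only [List.length_cons, List.length_map] at hlen1 ⊢
        exact hlen1
      · have hp2 : ((125 :: 92 :: 87 :: o4 :: O3).map (wAct chevE7 L2)).Perm
            (73 :: 87 :: 66 :: 78 :: O3.map (wAct chevE7 L2)) :=
          hp.append_right (O3.map (wAct chevE7 L2))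
        apply good_of_perm hB hO2 hp2
        apply fuse_std hB n ih (OL_perm hp2 hO2)
        simp only [List.length_cons, List.length_map] at hlen1 ⊢
        exact hlen1

/-- every involution of `U` is good -/
theorem good_of_U [Finite F] [CharP F 2] {u : GL chevE7.Idx F} (hu : u ∈ chevE7.posUnipotent F)
    (h1 : u * u = 1) (hne : u ≠ 1) : Good7 hB u := by
  obtain ⟨g, hg, O, c, hO1, hO2, e⟩ := main (e7RS hB) 63 63 (by simp [e7RS]) _ (closed_all hB) u
    (U_le_V hB hu) h1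
  have e' : g * u * g⁻¹ = CG.lp hB O c := e
  refine Good7.of_eq hB (V_le_group hB _ hg) e' ?_
  have hb : ∀ o ∈ O, o < 126 := fun o ho => (hO1 o ho).1.2
  obtain ⟨h, hh, e2⟩ := torus hB O hO2 hb c (fun o ho => (hO1 o ho).2.2)
  refine Good7.of_eq hB hh e2 ?_
  apply good_orth7 hB _ O rfl ⟨hO2, hb⟩
  rintro rfl
  apply hne
  have : g * u * g⁻¹ = 1 := by rw [e']; simp
  exact CG.conj_eq_one' this

end Cfsg.Agent.Lib.Helper52.E7I
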