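import Cfsg.Agent.Lib.Helper52.E7I.DefsE
import Cfsg.Agent.Lib.Helper52.E7I.F1

set_option autoImplicit false

/-! Piece M1 of the farm E7I (helper52, S2181): conjugation of the abelian group `U_{ht ≥ 9}` by `U`
(adapted by helper81 from helper37's E8I M1 / helper50's E6I N1, with one more clause). -/

namespace Cfsg.Agent.Lib.Helper52.E7I

open Cfsg.Lie Cfsg.Agent.Lib.Helper18 Cfsg.Agent.Lib.Helper17 Cfsg.Agent.Lib.Helper36
  Cfsg.Agent.Lib.Helper6 Matrix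

variable {F : Type*} [Field F] (hB : Base chevE7 F)

/-- Boolean table check for M1 -/
def M1_chk (r s : ℕ) : Bool :=
  match e7add r s with
  | none => true
  | some k => decide (k ∈ S9) && decide (ht7 s < ht7 k) &&
      decide (k = 112 ∨ k = 115 ∨ k = 119 → s = 112 ∨ s = 115 ∨ s = 119)

theorem M1_tab : ∀ r : Fin 126, ∀ s ∈ S9, M1_chk r s = true := by
  decide +kernel

theorem M1_tab' {r s k : ℕ} (hr : r < 126) (hs : s ∈ S9) (h : e7add r s = some k) :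
    (k ∈ S9 ∧ ht7 s < ht7 k) ∧ (k = 112 ∨ k = 115 ∨ k = 119 → s = 112 ∨ s = 115 ∨ s = 119) := by
  have h1 := M1_tab ⟨r, hr⟩ s hs
  simp only [M1_chk, h, Bool.and_eq_true, decide_eq_true_eq] at h1
  exact h1

theorem M1_pc_tab : ∀ s ∈ S9, ∀ s' ∈ S9, e7add s s' = none := by
  decide +kernel

theorem M1_S9_range : ∀ s ∈ S9, 63 ≤ s ∧ s < 126 := by
  decide

theorem M1_pos_tab : ∀ r : Fin 126, chevE7.IsPosRoot r → 63 ≤ r.val := by
  decide +kernel

theorem M1_pos {r : ℕ} (h : chevE7.IsPosRoot r) : 63 ≤ r ∧ r < 126 :=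
  ⟨M1_pos_tab ⟨r, h.1⟩ h, h.1⟩

theorem M1_PC : CG.PC hB S9 := by
  intro s hs s' hs' t u
  exact e7_comm_none hB s s' (M1_S9_range s hs).1 (M1_S9_range s hs).2 (M1_S9_range s' hs').1
    (M1_S9_range s' hs').2 (M1_pc_tab s hs s' hs') t u

theorem M1_lp_mul {L : List ℕ} (h : CG.PC hB L) (c d : ℕ → F) :
    CG.lp hB L c * CG.lp hB L d = CG.lp hB L (fun s => c s + d s) := by
  induction L with
  | nil => simp
  | cons k L ih =>
    rw [CG.lp_cons, CG.lp_cons, CG.lp_cons, ← ih h.tail, ← hB.xg_add]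
    have e := CG.lp_comm hB (g := hB.xg k (d k)) (L := L)
      (fun s hs u => h k (by simp) s (by simp [hs]) _ u) c
    calc hB.xg k (c k) * CG.lp hB L c * (hB.xg k (d k) * CG.lp hB L d)
        = hB.xg k (c k) * (CG.lp hB L c * hB.xg k (d k)) * CG.lp hB L d := by group
      _ = hB.xg k (c k) * (hB.xg k (d k) * CG.lp hB L c) * CG.lp hB L d := by rw [e]
      _ = _ := by group

/-- the relation between the coefficients before and after conjugation -/
def M1_Q (c δ : ℕ → F) : Prop :=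
  (∀ h : ℤ, (∀ s ∈ S9, ht7 s < h → c s = 0) → ∀ s, ht7 s ≤ h → δ s = 0) ∧
  (c 112 = 0 → c 115 = 0 → c 119 = 0 → δ 112 = 0 ∧ δ 115 = 0 ∧ δ 119 = 0)

theorem M1_step_aux [CharP F 2] {r : ℕ} (hr : chevE7.IsPosRoot r) (t : F) (c : ℕ → F) (L : List ℕ)
    (hL : ∀ s ∈ L, s ∈ S9) :
    ∃ δ : ℕ → F, hB.xg r t * CG.lp hB L c * (hB.xg r t)⁻¹ = CG.lp hB L c * CG.lp hB S9 δ ∧
      M1_Q c δ := by
  induction L with
  | nil =>
    refine ⟨fun _ => 0, ?_, fun _ _ _ _ => rfl, fun _ _ _ => ⟨rfl, rfl, rfl⟩⟩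
    rw [CG.lp_zero]; simp
  | cons s L ih =>
    obtain ⟨δ, e, q⟩ := ih (fun x hx => hL x (by simp [hx]))
    have hs : s ∈ S9 := hL s (by simp)
    have e0 : hB.xg r t * CG.lp hB (s :: L) c * (hB.xg r t)⁻¹ =
        (hB.xg r t * hB.xg s (c s) * (hB.xg r t)⁻¹) * (hB.xg r t * CG.lp hB L c * (hB.xg r t)⁻¹) := by
      rw [CG.lp_cons]; group
    rw [e0, e, CG.lp_cons]
    rcases hk : e7add r s with _ | k
    · refine ⟨δ, ?_, q⟩
      rw [e7_comm_none hB r s (M1_pos hr).1 (M1_pos hr).2 (M1_S9_range s hs).1 (M1_S9_range s hs).2 hk]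
      group
    · obtain ⟨⟨k1, k2⟩, k3⟩ := M1_tab' (M1_pos hr).2 hs hk
      refine ⟨CG.upd δ k (t * c s), ?_, ?_, ?_⟩
      · rw [e7_conj_some hB r s k (M1_pos hr).1 (M1_pos hr).2 (M1_S9_range s hs).1
          (M1_S9_range s hs).2 hk,
          ← CG.lp_mul_single hB (by decide) k1 (fun x hx e' u => M1_PC hB k k1 x hx e' u) δ]
        have c1 := CG.lp_comm hB (g := hB.xg k (t * c s)) (L := L)
          (fun x hx u => M1_PC hB k k1 x (hL x (by simp [hx])) _ u) c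
        have c2 := CG.lp_comm hB (g := hB.xg k (t * c s)) (L := S9)
          (fun x hx u => M1_PC hB k k1 x hx _ u) δ
        calc hB.xg s (c s) * hB.xg k (t * c s) * (CG.lp hB L c * CG.lp hB S9 δ)
            = hB.xg s (c s) * (hB.xg k (t * c s) * CG.lp hB L c) * CG.lp hB S9 δ := by group
          _ = hB.xg s (c s) * (CG.lp hB L c * hB.xg k (t * c s)) * CG.lp hB S9 δ := by rw [c1]
          _ = hB.xg s (c s) * CG.lp hB L c * (hB.xg k (t * c s) * CG.lp hB S9 δ) := by group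
          _ = hB.xg s (c s) * CG.lp hB L c * (CG.lp hB S9 δ * hB.xg k (t * c s)) := by rw [c2]
      · intro h hall x hx
        have hδ := q.1 h hall x hx
        by_cases hxk : x = k
        · subst hxk
          have hcs : c s = 0 := hall s hs (lt_of_lt_of_le k2 hx)
          simp [CG.upd, hcs, hδ]
        · simp [CG.upd, hxk, hδ]
      · intro a1 a2 a3
        obtain ⟨b1, b2, b3⟩ := q.2 a1 a2 a3
        have key : ∀ x, (x = 112 ∨ x = 115 ∨ x = 119) → δ x = 0 → CG.upd δ k (t * c s) x = 0 := by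
          intro x hx hδ
          by_cases hxk : x = k
          · subst hxk
            have hcs : c s = 0 := by
              rcases k3 hx with h0 | h0 | h0 <;> rw [h0] <;> assumption
            simp [CG.upd, hcs, hδ]
          · simp [CG.upd, hxk, hδ]
        exact ⟨key 112 (by simp) b1, key 115 (by simp) b2, key 119 (by simp) b3⟩

/-- the relation of the statement -/
def M1_R (c c' : ℕ → F) : Prop :=
  (∀ h : ℤ, (∀ s ∈ S9, ht7 s < h → c s = 0) → ∀ s ∈ S9, ht7 s ≤ h → c' s = c s) ∧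
  (c 112 = 0 → c 115 = 0 → c 119 = 0 → c' 112 = 0 ∧ c' 115 = 0 ∧ c' 119 = 0)

theorem M1_R_trans {c c' c'' : ℕ → F} (h : M1_R c c') (h' : M1_R c' c'') : M1_R c c'' := by
  refine ⟨?_, ?_⟩
  · intro k hall s hs hsk
    have h1 := h.1 k hall
    rw [h'.1 k (fun x hx hxk => (h1 x hx hxk.le).trans (hall x hx hxk)) s hs hsk, h1 s hs hsk]
  · intro a1 a2 a3
    obtain ⟨b1, b2, b3⟩ := h.2 a1 a2 a3
    exact h'.2 b1 b2 b3

theorem M1_step [CharP F 2] {r : ℕ} (hr : chevE7.IsPosRoot r) (t : F) (c : ℕ → F) :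
    ∃ c' : ℕ → F, hB.xg r t * CG.lp hB S9 c * (hB.xg r t)⁻¹ = CG.lp hB S9 c' ∧ M1_R c c' := by
  obtain ⟨δ, e, q⟩ := M1_step_aux hB hr t c S9 (fun _ h => h)
  refine ⟨fun s => c s + δ s, by rw [e, M1_lp_mul hB (M1_PC hB)], ?_, ?_⟩
  · intro h hall s _ hsh
    simp [q.1 h hall s hsh]
  · intro a1 a2 a3
    obtain ⟨b1, b2, b3⟩ := q.2 a1 a2 a3
    simp [a1, a2, a3, b1, b2, b3]

theorem M1_mem : chevE7 ∈ [chevG2, chevB2, chevD4, chevF4, chevE6, chevE7, chevE8] := by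
  iterate 5 apply List.mem_cons_of_mem
  exact List.mem_cons_self

/-- [M1] -/
theorem conj_S9 [CharP F 2] {u : GL chevE7.Idx F} (hu : u ∈ chevE7.posUnipotent F) (c : ℕ → F) :
    ∃ c' : ℕ → F, u * CG.lp hB S9 c * u⁻¹ = CG.lp hB S9 c' ∧
      (∀ h : ℤ, (∀ s ∈ S9, ht7 s < h → c s = 0) → ∀ s ∈ S9, ht7 s ≤ h → c' s = c s) ∧
      (c 112 = 0 → c 115 = 0 → c 119 = 0 → c' 112 = 0 ∧ c' 115 = 0 ∧ c' 119 = 0) := by
  obtain ⟨d, hd⟩ := CG.U_form hB M1_mem hu
  rw [hd]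
  clear hd hu
  have key : ∀ L : List ℕ, (∀ r ∈ L, chevE7.IsPosRoot r) →
      ∃ c' : ℕ → F, CG.lp hB L d * CG.lp hB S9 c * (CG.lp hB L d)⁻¹ = CG.lp hB S9 c' ∧ M1_R c c' := by
    intro L hL
    induction L with
    | nil => exact ⟨c, by simp, fun _ _ _ _ _ => rfl, fun a1 a2 a3 => ⟨a1, a2, a3⟩⟩
    | cons r L ih =>
      obtain ⟨c1, e1, r1⟩ := ih (fun x hx => hL x (by simp [hx]))
      obtain ⟨c2, e2, r2⟩ := M1_step hB (hL r (by simp)) (d r) c1
      exact ⟨c2, by rw [CG.lp_cons, CG.conj_mul', e1, e2], M1_R_trans r1 r2⟩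
  exact key chevE7.posRoots (fun r hr => by
    have := (List.mem_filter.1 hr).2
    exact of_decide_eq_true this)

end Cfsg.Agent.Lib.Helper52.E7I
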